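import Mathlib
import Cfsg.Agent.Lib.Helper1.Commutator
import Cfsg.Agent.Lib.Helper75.BGUtil
import Cfsg.Agent.Lib.Helper47.Syl

set_option autoImplicit false

namespace Cfsg.Agent.Lib.Helper65.AbLift

open Subgroup
open scoped commutatorElement

/-- In a finite cyclic group, a subgroup whose order divides the order of another subgroup is
contained in it. -/
theorem le_of_card_dvd_of_isCyclic {C : Type*} [Group C] [Finite C] [IsCyclic C]
    (X Y : Subgroup C) (h : Nat.card X ∣ Nat.card Y) : X ≤ Y := by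
  classical
  have : Fintype C := Fintype.ofFinite C
  set n := Nat.card Y with hn
  have hn0 : 0 < n := Nat.card_pos
  have hle := IsCyclic.card_pow_eq_one_le (α := C) hn0
  have hsub : (Y : Set C).toFinset ⊆ Finset.univ.filter (fun a : C => a ^ n = 1) := by
    intro y hy
    simp only [Set.mem_toFinset, SetLike.mem_coe] at hy
    simp only [Finset.mem_filter, Finset.mem_univ, true_and]
    exact orderOf_dvd_iff_pow_eq_one.mp (Subgroup.orderOf_dvd_natCard Y hy)
  have hcard : ((Y : Set C).toFinset).card = n := by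
    rw [Set.toFinset_card, hn, Nat.card_eq_fintype_card]
    rfl
  have heq := Finset.eq_of_subset_of_card_le hsub (by rw [hcard]; exact hle)
  intro x hx
  have hx1 : x ^ n = 1 := by
    obtain ⟨k, hk⟩ := h
    have h3 : x ^ Nat.card X = 1 :=
      orderOf_dvd_iff_pow_eq_one.mp (Subgroup.orderOf_dvd_natCard X hx)
    rw [hk, pow_mul, h3, one_pow]
  have : x ∈ (Y : Set C).toFinset := by
    rw [heq]
    simp [hx1]
  simpa using this

/-- Subgroups of a cyclic `q`-group form a chain. -/
theorem le_or_le_of_isCyclic_pgroup {G : Type*} [Group G] {q : ℕ} [Fact q.Prime]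
    (T : Subgroup G) [Finite T] (hT : IsCyclic T) (hq : IsPGroup q T) (X Y : Subgroup G)
    (hX : X ≤ T) (hY : Y ≤ T) : X ≤ Y ∨ Y ≤ X := by
  have hXq : IsPGroup q (X.subgroupOf T) := hq.to_subgroup _
  have hYq : IsPGroup q (Y.subgroupOf T) := hq.to_subgroup _
  obtain ⟨i, hi⟩ := IsPGroup.iff_card.mp hXq
  obtain ⟨j, hj⟩ := IsPGroup.iff_card.mp hYq
  rcases le_total i j with hij | hij
  · left
    have := le_of_card_dvd_of_isCyclic (X.subgroupOf T) (Y.subgroupOf T)
      (by rw [hi, hj]; exact pow_dvd_pow q hij)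
    intro z hz
    exact this (show (⟨z, hX hz⟩ : T) ∈ X.subgroupOf T from hz)
  · right
    have := le_of_card_dvd_of_isCyclic (Y.subgroupOf T) (X.subgroupOf T)
      (by rw [hi, hj]; exact pow_dvd_pow q hij)
    intro z hz
    exact this (show (⟨z, hY hz⟩ : T) ∈ Y.subgroupOf T from hz)

/-- Hypothesis: for primes `q` dividing `|M|`, the `q`-subgroups not inside `M` are cyclic. -/
def CycHyp {L : Type*} [Group L] (M : Subgroup L) : Prop :=
  ∀ q : ℕ, q.Prime → q ∣ Nat.card M → ∀ Q : Subgroup L, IsPGroup q Q → ¬ Q ≤ M → IsCyclic Q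

/-- In a finite group in which abelian subgroups of equal order are conjugate, `CycHyp` holds for
every normal subgroup of odd order. -/
theorem cycHyp_of_conj {G : Type*} [Group G] [Finite G]
    (hB : ∀ A B : Subgroup G, IsMulCommutative ↥A → IsMulCommutative ↥B →
      Nat.card ↥A = Nat.card ↥B → ∃ g : G, B = A.map (MulAut.conj g).toMonoidHom)
    (M : Subgroup G) [hMn : M.Normal] (hM : Odd (Nat.card M)) : CycHyp M := by
  intro q hq hqM Q hQ hQM
  have : Fact q.Prime := ⟨hq⟩
  have hq2 : q ≠ 2 := by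
    rintro rfl
    exact (Nat.not_even_iff_odd.mpr hM) (even_iff_two_dvd.mpr hqM)
  obtain ⟨m, hm⟩ := exists_prime_orderOf_dvd_card' (G := M) q hqM
  obtain ⟨x, hxQ, hxM⟩ := SetLike.not_le_iff_exists.mp hQM
  obtain ⟨k, hk⟩ : ∃ k : ℕ, orderOf x = q ^ k := by
    obtain ⟨k, hk⟩ := hQ ⟨x, hxQ⟩
    have h1 : x ^ q ^ k = 1 := by
      have := congrArg Subtype.val hk
      simpa using this
    obtain ⟨j, -, hj⟩ := (Nat.dvd_prime_pow hq).mp (orderOf_dvd_of_pow_eq_one h1)
    exact ⟨j, hj⟩
  have hk2 : 2 ≤ k := by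
    by_contra hlt
    have h01 : k = 0 ∨ k = 1 := by omega
    rcases h01 with rfl | rfl
    · rw [pow_zero, orderOf_eq_one_iff] at hk
      exact hxM (hk ▸ M.one_mem)
    · rw [pow_one] at hk
      apply hxM
      obtain ⟨g, hg⟩ := hB (Subgroup.zpowers (m : G)) (Subgroup.zpowers x) inferInstance
        inferInstance (by rw [Nat.card_zpowers, Nat.card_zpowers, hk, Subgroup.orderOf_coe, hm])
      have hx : x ∈ Subgroup.zpowers x := Subgroup.mem_zpowers x
      rw [hg, Subgroup.mem_map] at hx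
      obtain ⟨z, hz, rfl⟩ := hx
      have hzM : z ∈ M := (Subgroup.zpowers_le.mpr m.2) hz
      simp only [MulEquiv.toMonoidHom_eq_coe, MonoidHom.coe_coe, MulAut.conj_apply]
      exact hMn.conj_mem z hzM g
  set y := x ^ q ^ (k - 2) with hy
  have hyord : orderOf y = q ^ 2 := by
    rw [hy, orderOf_pow' x (pow_ne_zero _ hq.ne_zero), hk,
      Nat.gcd_eq_right (pow_dvd_pow q (by omega)), Nat.pow_div (by omega) hq.pos]
    congr 1
    omega
  apply Cfsg.Agent.Lib.Helper75.BG.isCyclic_of_pRankLE_one q hq2 hQ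
  intro A hAc hAe
  by_contra hlt
  have hAq : IsPGroup q A := hQ.to_subgroup A
  obtain ⟨j, hj⟩ := IsPGroup.iff_card.mp hAq
  have hj2 : 2 ≤ j := by
    by_contra hj1
    apply hlt
    rw [hj]
    exact Nat.pow_le_pow_right hq.pos (by omega)
  have hdvd : q ^ 2 ∣ Nat.card A := by rw [hj]; exact pow_dvd_pow q hj2
  obtain ⟨K, hK⟩ := Sylow.exists_subgroup_card_pow_prime q hdvd
  set K' : Subgroup G := (K.map A.subtype).map Q.subtype with hK'
  have hK'card : Nat.card K' = q ^ 2 := by
    rw [hK', Subgroup.card_map_of_injective Q.subtype_injective,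
      Subgroup.card_map_of_injective A.subtype_injective]
    exact hK
  have hK'comm : IsMulCommutative K' := inferInstance
  obtain ⟨g, hg⟩ := hB K' (Subgroup.zpowers y) hK'comm inferInstance
    (by rw [hK'card, Nat.card_zpowers, hyord])
  have hymem : y ∈ Subgroup.zpowers y := Subgroup.mem_zpowers y
  rw [hg, Subgroup.mem_map] at hymem
  obtain ⟨e, he, hey⟩ := hymem
  have hep : e ^ q = 1 := by
    rw [hK'] at he
    obtain ⟨e1, he1, rfl⟩ := he
    obtain ⟨e2, he2, rfl⟩ := he1
    have := hAe e2.1 e2.2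
    have h2 := congrArg Subtype.val this
    simpa using h2
  have hyq : y ^ q = 1 := by
    rw [← hey]
    simp only [MulEquiv.toMonoidHom_eq_coe, MonoidHom.coe_coe]
    rw [← map_pow, hep, map_one]
  have h3 : q ^ 2 ∣ q := by
    rw [← hyord]
    exact orderOf_dvd_of_pow_eq_one hyq
  have h4 := Nat.le_of_dvd hq.pos h3
  have h5 := hq.two_le
  nlinarith

/-- `CycHyp` passes to subgroups. -/
theorem CycHyp.subgroupOf {L : Type*} [Group L] {M : Subgroup L} (h : CycHyp M)
    (K : Subgroup L) : CycHyp (M.subgroupOf K) := by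
  intro q hq hqM Q hQ hQM
  have h1 : q ∣ Nat.card M := by
    have h2 : Nat.card (M.subgroupOf K) ∣ Nat.card M := by
      have h3 : Nat.card (M.subgroupOf K) = Nat.card ((M.subgroupOf K).map K.subtype) :=
        (Subgroup.card_map_of_injective K.subtype_injective).symm
      rw [h3]
      apply Subgroup.card_dvd_of_le
      rintro _ ⟨z, hz, rfl⟩
      exact hz
    exact hqM.trans h2
  have h2 : IsCyclic (Q.map K.subtype) := by
    apply h q hq h1 (Q.map K.subtype) (hQ.map _)
    intro hle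
    apply hQM
    intro z hz
    exact hle (Subgroup.mem_map_of_mem _ hz)
  exact isCyclic_of_surjective _ (Q.equivMapOfInjective K.subtype K.subtype_injective).symm.surjective

/-- A `q`-subgroup meets a subgroup of order prime to `q` trivially. -/
theorem pgroup_inf_eq_bot {L : Type*} [Group L] [Finite L] {q : ℕ} [Fact q.Prime]
    {Q M : Subgroup L} (hQ : IsPGroup q Q) (hqM : ¬ q ∣ Nat.card M) : Q ⊓ M = ⊥ := by
  have hq : q.Prime := Fact.out
  rw [eq_bot_iff]
  intro c hc
  obtain ⟨k, hk⟩ := hQ ⟨c, hc.1⟩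
  have h1 : c ^ q ^ k = 1 := by
    have := congrArg Subtype.val hk
    simpa using this
  have h2 : orderOf c ∣ q ^ k := orderOf_dvd_of_pow_eq_one h1
  have h3 : orderOf c ∣ Nat.card M := Subgroup.orderOf_dvd_natCard M hc.2
  have h4 : (q ^ k).Coprime (Nat.card M) :=
    Nat.Coprime.pow_left k ((Nat.Prime.coprime_iff_not_dvd hq).mpr hqM)
  have h5 : orderOf c = 1 := Nat.eq_one_of_dvd_coprimes h4 h2 h3
  rw [Subgroup.mem_bot]
  exact orderOf_eq_one_iff.mp h5

/-- The join of two abelian subgroups that centralize each other is abelian. -/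
theorem isMulCommutative_sup' {L : Type*} [Group L] (H K : Subgroup L) (hH : IsMulCommutative ↥H)
    (hK : IsMulCommutative ↥K) (hc : H ≤ Subgroup.centralizer (K : Set L)) :
    IsMulCommutative ↥(H ⊔ K) := by
  have hc' : K ≤ Subgroup.centralizer (H : Set L) := Subgroup.le_centralizer_iff.mp hc
  have hH' : H ≤ Subgroup.centralizer (H : Set L) :=
    Subgroup.le_centralizer_iff_isMulCommutative.mpr hH
  have hK' : K ≤ Subgroup.centralizer (K : Set L) :=
    Subgroup.le_centralizer_iff_isMulCommutative.mpr hK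
  rw [← Subgroup.le_centralizer_iff_isMulCommutative]
  have h1 : H ⊔ K ≤ Subgroup.centralizer (H : Set L) := sup_le hH' hc'
  have h2 : H ⊔ K ≤ Subgroup.centralizer (K : Set L) := sup_le hc hK'
  have h3 : H ≤ Subgroup.centralizer ((H ⊔ K : Subgroup L) : Set L) :=
    Subgroup.le_centralizer_iff.mp h1
  have h4 : K ≤ Subgroup.centralizer ((H ⊔ K : Subgroup L) : Set L) :=
    Subgroup.le_centralizer_iff.mp h2
  exact sup_le h3 h4

section Step

variable {L : Type*} [Group L] [Finite L] (M : Subgroup L) [hMn : M.Normal]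
  (hab : ∀ a b : L, a * b * a⁻¹ * b⁻¹ ∈ M) {q : ℕ} [hqf : Fact q.Prime] (Q : Sylow q L)

omit hMn in
/-- If `q` divides the index of `M`, a Sylow `q`-subgroup is not contained in `M`. -/
theorem sylow_not_le_of_dvd_index (hqd : q ∣ M.index) : ¬ (Q : Subgroup L) ≤ M := by
  intro hle
  have h1 : M.index ∣ (Q : Subgroup L).index := Subgroup.index_dvd_of_le hle
  exact Q.not_dvd_index (hqd.trans h1)

omit hMn in
include hab in
/-- A Sylow `q`-subgroup is abelian when `L / M` is abelian and `CycHyp M` holds. -/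
theorem sylow_isMulCommutative (hcyc : CycHyp M) (hQM : ¬ (Q : Subgroup L) ≤ M) :
    IsMulCommutative (Q : Subgroup L) := by
  have hq : q.Prime := Fact.out
  by_cases hqM : q ∣ Nat.card M
  · have hQc : IsCyclic (Q : Subgroup L) := hcyc q hq hqM Q Q.isPGroup' hQM
    obtain ⟨g, hg⟩ := hQc.exists_generator
    refine ⟨⟨fun a b => ?_⟩⟩
    obtain ⟨i, rfl⟩ := Subgroup.mem_zpowers_iff.mp (hg a)
    obtain ⟨j, rfl⟩ := Subgroup.mem_zpowers_iff.mp (hg b)
    rw [← zpow_add, ← zpow_add, add_comm]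
  · have hbot := pgroup_inf_eq_bot (Q := (Q : Subgroup L)) (M := M) Q.isPGroup' hqM
    refine ⟨⟨fun a b => ?_⟩⟩
    have h1 : (a : L) * b * (a : L)⁻¹ * (b : L)⁻¹ ∈ (Q : Subgroup L) ⊓ M :=
      ⟨(Q : Subgroup L).mul_mem ((Q : Subgroup L).mul_mem ((Q : Subgroup L).mul_mem a.2 b.2)
        ((Q : Subgroup L).inv_mem a.2)) ((Q : Subgroup L).inv_mem b.2), hab a b⟩
    rw [hbot, Subgroup.mem_bot] at h1
    apply Subtype.ext
    have h2 : (a : L) * b = b * a := by
      have h3 : (a : L) * b = ((a : L) * b * (a : L)⁻¹ * (b : L)⁻¹) * (b * a) := by group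
      rw [h3, h1, one_mul]
    exact h2

omit hMn in
include hab in
/-- Elements of order prime to `q` normalizing a Sylow `q`-subgroup `Q ⊄ M` centralize it. -/
theorem commute_of_mem_normalizer_sylow (hcyc : CycHyp M) (hQM : ¬ (Q : Subgroup L) ≤ M) {n : L}
    (hn : n ∈ Subgroup.normalizer ((Q : Subgroup L) : Set L)) (hnq : (orderOf n).Coprime q) :
    ∀ x ∈ (Q : Subgroup L), n * x = x * n := by
  have hq : q.Prime := Fact.out
  by_cases hqM : q ∣ Nat.card M
  · have hQc : IsCyclic (Q : Subgroup L) := hcyc q hq hqM Q Q.isPGroup' hQM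
    set A : Subgroup L := Subgroup.zpowers n with hA
    have hAK : A ≤ Subgroup.normalizer ((Q : Subgroup L) : Set L) := Subgroup.zpowers_le.mpr hn
    have hcop : (Nat.card A).Coprime (Nat.card (Q : Subgroup L)) := by
      obtain ⟨k, hk⟩ := IsPGroup.iff_card.mp Q.isPGroup'
      rw [hA, Nat.card_zpowers, hk]
      exact Nat.Coprime.pow_right k hnq
    have hAsol : Group.IsSolvable A := by
      apply Group.isSolvable_of_comm
      intro a b
      exact mul_comm' a b
    have key := Cfsg.Agent.Lib.Helper1.coprime_commutator_sup_centralizer A (Q : Subgroup L) hAK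
      hcop (Or.inl hAsol)
    have hcomm : ⁅(Q : Subgroup L), A⁆ ≤ (Q : Subgroup L) ⊓ M := by
      rw [Subgroup.commutator_le]
      intro g₁ hg₁ g₂ hg₂
      refine ⟨?_, ?_⟩
      · have h1 : g₂ * g₁⁻¹ * g₂⁻¹ ∈ (Q : Subgroup L) :=
          (Subgroup.mem_normalizer_iff.mp (hAK hg₂) g₁⁻¹).mp ((Q : Subgroup L).inv_mem hg₁)
        have h2 : ⁅g₁, g₂⁆ = g₁ * (g₂ * g₁⁻¹ * g₂⁻¹) := by
          rw [commutatorElement_def]; group
        rw [h2]
        exact (Q : Subgroup L).mul_mem hg₁ h1
      · rw [commutatorElement_def]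
        exact hab g₁ g₂
    rcases le_or_le_of_isCyclic_pgroup (Q : Subgroup L) hQc Q.isPGroup' ((Q : Subgroup L) ⊓ M)
        ((Q : Subgroup L) ⊓ Subgroup.centralizer (A : Set L)) inf_le_left inf_le_left with h | h
    · have h1 : (Q : Subgroup L) ≤ (Q : Subgroup L) ⊓ Subgroup.centralizer (A : Set L) := by
        calc (Q : Subgroup L) = ⁅(Q : Subgroup L), A⁆ ⊔
              ((Q : Subgroup L) ⊓ Subgroup.centralizer (A : Set L)) := key.symm
          _ ≤ _ := sup_le (hcomm.trans h) le_rfl
      intro x hx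
      have h2 := (h1 hx).2
      exact Subgroup.mem_centralizer_iff.mp h2 n (Subgroup.mem_zpowers n)
    · exfalso
      apply hQM
      calc (Q : Subgroup L) = ⁅(Q : Subgroup L), A⁆ ⊔
            ((Q : Subgroup L) ⊓ Subgroup.centralizer (A : Set L)) := key.symm
        _ ≤ (Q : Subgroup L) ⊓ M := sup_le hcomm h
        _ ≤ M := inf_le_right
  · have hbot := pgroup_inf_eq_bot (Q := (Q : Subgroup L)) (M := M) Q.isPGroup' hqM
    intro x hx
    have h1 : n * x * n⁻¹ * x⁻¹ ∈ (Q : Subgroup L) ⊓ M :=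
      ⟨(Q : Subgroup L).mul_mem ((Subgroup.mem_normalizer_iff.mp hn x).mp hx)
        ((Q : Subgroup L).inv_mem hx), hab n x⟩
    rw [hbot, Subgroup.mem_bot] at h1
    have h3 : n * x = (n * x * n⁻¹ * x⁻¹) * (x * n) := by group
    rw [h3, h1, one_mul]

end Step

section Step2

variable {L : Type*} [Group L] [Finite L] (M : Subgroup L) [hMn : M.Normal]
  (hab : ∀ a b : L, a * b * a⁻¹ * b⁻¹ ∈ M) {q : ℕ} [hqf : Fact q.Prime] (Q : Sylow q L)

omit hMn in
include hab in
/-- Frattini decomposition: `L` is generated by the `q'`-elements of `N_L(Q)`, `Q` and `M`. -/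
theorem frattini_decomp :
    Subgroup.closure {n : L | n ∈ Subgroup.normalizer ((Q : Subgroup L) : Set L) ∧
      (orderOf n).Coprime q} ⊔ (Q : Subgroup L) ⊔ M = ⊤ := by
  have hq : q.Prime := Fact.out
  have hN₀ : (M ⊔ (Q : Subgroup L)).Normal := ⟨fun x hx g => by
    have h1 : g * x * g⁻¹ = (g * x * g⁻¹ * x⁻¹) * x := by group
    rw [h1]
    exact Subgroup.mul_mem _ (Subgroup.mem_sup_left (hab g x)) hx⟩
  have hfr := Sylow.normalizer_sup_eq_top' (N := M ⊔ (Q : Subgroup L)) Q le_sup_right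
  rw [eq_top_iff, ← hfr]
  apply sup_le
  · intro n hn
    apply Subgroup.mem_sup_left
    obtain ⟨e, m₀, hm₀, hc⟩ := Nat.exists_eq_pow_mul_and_not_dvd (Nat.card_pos (α := L)).ne' q
      hq.ne_one
    have hcop : IsCoprime ((q ^ e : ℕ) : ℤ) (m₀ : ℤ) :=
      Nat.isCoprime_iff_coprime.mpr
        (Nat.Coprime.pow_left e ((Nat.Prime.coprime_iff_not_dvd hq).mpr hm₀))
    obtain ⟨u, v, huv⟩ := hcop
    have hn1 : n = (n ^ (q ^ e)) ^ u * (n ^ m₀) ^ v := by
      rw [← zpow_natCast, ← zpow_natCast, ← zpow_mul, ← zpow_mul, ← zpow_add]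
      conv_lhs => rw [← zpow_one n]
      congr 1
      linarith [huv]
    have hcard : n ^ Nat.card L = 1 := pow_card_eq_one'
    rw [hn1]
    apply Subgroup.mul_mem_sup
    · apply Subgroup.zpow_mem
      apply Subgroup.subset_closure
      refine ⟨Subgroup.pow_mem _ hn _, ?_⟩
      have h2 : (n ^ q ^ e) ^ m₀ = 1 := by rw [← pow_mul, ← hc]; exact hcard
      exact Nat.Coprime.coprime_dvd_left (orderOf_dvd_of_pow_eq_one h2)
        ((Nat.Prime.coprime_iff_not_dvd hq).mpr hm₀).symm
    · apply Subgroup.zpow_mem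
      have hord : orderOf (n ^ m₀) ∣ q ^ e := by
        apply orderOf_dvd_of_pow_eq_one
        rw [← pow_mul, mul_comm, ← hc]
        exact hcard
      obtain ⟨j, -, hj⟩ := (Nat.dvd_prime_pow hq).mp hord
      have hpg : IsPGroup q (Subgroup.zpowers (n ^ m₀)) :=
        IsPGroup.of_card (n := j) (by rw [Nat.card_zpowers, hj])
      have h2 := hpg.inf_normalizer_sylow Q
      have h3 : n ^ m₀ ∈ Subgroup.zpowers (n ^ m₀) ⊓ (Q : Subgroup L) := by
        rw [← h2]
        exact ⟨Subgroup.mem_zpowers _, Subgroup.pow_mem _ hn _⟩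
      exact h3.2
  · exact sup_le le_sup_right (le_sup_of_le_left le_sup_right)

include hab in
/-- The `q'`-elements together with `M` do not generate `L` when `q` divides `|L : M|`. -/
theorem closure_coprime_sup_ne_top (hqd : q ∣ M.index) :
    Subgroup.closure {n : L | (orderOf n).Coprime q} ⊔ M ≠ ⊤ := by
  have hq : q.Prime := Fact.out
  obtain ⟨e, m₀, hm₀, hc⟩ := Nat.exists_eq_pow_mul_and_not_dvd (Nat.card_pos (α := L)).ne' q
    hq.ne_one
  have hcomm : ∀ a b : L, Commute (QuotientGroup.mk' M a) (QuotientGroup.mk' M b) := by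
    intro a b
    have h1 : a * b = (a * b * a⁻¹ * b⁻¹) * (b * a) := by group
    have h2 : QuotientGroup.mk' M (a * b * a⁻¹ * b⁻¹) = 1 :=
      (QuotientGroup.eq_one_iff _).mpr (hab a b)
    show QuotientGroup.mk' M a * QuotientGroup.mk' M b =
      QuotientGroup.mk' M b * QuotientGroup.mk' M a
    rw [← map_mul, ← map_mul, h1, map_mul, h2, one_mul]
  let W : Subgroup L :=
    { carrier := {l | (QuotientGroup.mk' M l) ^ m₀ = 1}
      mul_mem' := by
        intro a b ha hb
        change _ = _ at ha hb ⊢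
        rw [map_mul, (hcomm a b).mul_pow, ha, hb, one_mul]
      one_mem' := by simp
      inv_mem' := by
        intro a ha
        change _ = _ at ha ⊢
        rw [map_inv, inv_pow, ha, inv_one] }
  have hW1 : Subgroup.closure {n : L | (orderOf n).Coprime q} ≤ W := by
    rw [Subgroup.closure_le]
    intro n hn
    have h1 : orderOf n ∣ q ^ e * m₀ := hc ▸ orderOf_dvd_natCard n
    have h2 : orderOf n ∣ m₀ := (Nat.Coprime.pow_right e hn).dvd_of_dvd_mul_left h1
    show (QuotientGroup.mk' M n) ^ m₀ = 1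
    rw [← map_pow, orderOf_dvd_iff_pow_eq_one.mp h2, map_one]
  have hW2 : M ≤ W := by
    intro m hm
    show (QuotientGroup.mk' M m) ^ m₀ = 1
    have h1 : QuotientGroup.mk' M m = 1 := (QuotientGroup.eq_one_iff m).mpr hm
    rw [h1, one_pow]
  intro htop
  have hWtop : W = ⊤ := eq_top_iff.mpr (htop ▸ sup_le hW1 hW2)
  have hqd' : q ∣ Nat.card (L ⧸ M) := hqd
  obtain ⟨y, hy⟩ := exists_prime_orderOf_dvd_card' (G := L ⧸ M) q hqd'
  obtain ⟨l, rfl⟩ := QuotientGroup.mk_surjective y
  have hl : l ∈ W := hWtop ▸ Subgroup.mem_top l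
  have h3 : (QuotientGroup.mk' M l) ^ m₀ = 1 := hl
  have h4 : q ∣ m₀ := by
    rw [← hy]
    exact orderOf_dvd_of_pow_eq_one h3
  exact hm₀ h4

end Step2

/-- **Abelian supplement.** If `L / M` is abelian and `CycHyp M` holds, then `M` has an abelian
supplement in `L`. -/
theorem exists_abelian_supplement.{u} : ∀ (n : ℕ) (L : Type u) [Group L] [Finite L]
    (M : Subgroup L) [M.Normal], M.index = n → (∀ a b : L, a * b * a⁻¹ * b⁻¹ ∈ M) → CycHyp M →
    ∃ A : Subgroup L, IsMulCommutative A ∧ A ⊔ M = ⊤ := by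
  intro n
  induction n using Nat.strong_induction_on with
  | _ n ih =>
  intro L _ _ M hMn hn hab hcyc
  by_cases hM : M = ⊤
  · exact ⟨⊥, inferInstance, by rw [hM]; simp⟩
  have hidx : M.index ≠ 1 := fun h => hM (Subgroup.index_eq_one.mp h)
  obtain ⟨q, hq, hqd⟩ := Nat.exists_prime_and_dvd hidx
  have hqf : Fact q.Prime := ⟨hq⟩
  obtain ⟨Q⟩ : Nonempty (Sylow q L) := inferInstance
  have hQM := sylow_not_le_of_dvd_index M Q hqd
  set K' : Subgroup L := Subgroup.closure {n : L | n ∈ Subgroup.normalizer ((Q : Subgroup L) : Set L) ∧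
      (orderOf n).Coprime q} with hK'
  have hK'cen : K' ≤ Subgroup.centralizer ((Q : Subgroup L) : Set L) := by
    rw [hK', Subgroup.closure_le]
    rintro n ⟨hn1, hn2⟩
    rw [SetLike.mem_coe, Subgroup.mem_centralizer_iff]
    intro x hx
    exact (commute_of_mem_normalizer_sylow M hab Q hcyc hQM hn1 hn2 x hx).symm
  have hfr := frattini_decomp M hab Q
  rw [← hK'] at hfr
  have hne : K' ⊔ M ≠ ⊤ := by
    intro htop
    apply closure_coprime_sup_ne_top M hab (q := q) hqd
    rw [eq_top_iff, ← htop]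
    apply sup_le_sup_right
    rw [hK']
    apply Subgroup.closure_mono
    rintro n ⟨-, hn2⟩
    exact hn2
  have hlt : M.relIndex K' < n := by
    have h1 : M.relIndex K' ∣ M.index := Subgroup.relIndex_dvd_index_of_normal M K'
    have hpos : 0 < M.index := Nat.pos_of_ne_zero Subgroup.index_ne_zero_of_finite
    have h2 : M.relIndex K' ≤ M.index := Nat.le_of_dvd hpos h1
    rcases lt_or_eq_of_le h2 with h3 | h3
    · rw [← hn]; exact h3
    · exfalso
      apply hne
      have h4 : M.relIndex (K' ⊔ M) = M.relIndex K' := Subgroup.relIndex_sup_right K' M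
      have h5 := Subgroup.relIndex_mul_index (le_sup_right : M ≤ K' ⊔ M)
      rw [h4, h3] at h5
      have h6 : (K' ⊔ M).index = 1 := by
        have : M.index * (K' ⊔ M).index = M.index * 1 := by rw [h5, mul_one]
        exact Nat.eq_of_mul_eq_mul_left hpos this
      exact Subgroup.index_eq_one.mp h6
  have hab' : ∀ a b : K', a * b * a⁻¹ * b⁻¹ ∈ M.subgroupOf K' := by
    intro a b
    rw [Subgroup.mem_subgroupOf]
    exact hab a b
  obtain ⟨A', hA'c, hA'⟩ := ih (M.relIndex K') hlt ↥K' (M.subgroupOf K') rfl hab'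
    (hcyc.subgroupOf K')
  have hQc : IsMulCommutative (Q : Subgroup L) := sylow_isMulCommutative M hab Q hcyc hQM
  have hA'map : IsMulCommutative (A'.map K'.subtype) := inferInstance
  have hA'le : A'.map K'.subtype ≤ K' := by
    rintro _ ⟨z, -, rfl⟩
    exact z.2
  refine ⟨A'.map K'.subtype ⊔ (Q : Subgroup L),
    isMulCommutative_sup' _ _ hA'map hQc (hA'le.trans hK'cen), ?_⟩
  rw [eq_top_iff, ← hfr]
  have hK'le : K' ≤ A'.map K'.subtype ⊔ M := by
    intro k hk
    have h1 : (⟨k, hk⟩ : K') ∈ A' ⊔ M.subgroupOf K' := hA' ▸ Subgroup.mem_top _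
    have h2 : K'.subtype ⟨k, hk⟩ ∈ (A' ⊔ M.subgroupOf K').map K'.subtype :=
      Subgroup.mem_map_of_mem _ h1
    rw [Subgroup.map_sup] at h2
    have h3 : A'.map K'.subtype ⊔ (M.subgroupOf K').map K'.subtype ≤ A'.map K'.subtype ⊔ M := by
      apply sup_le_sup_left
      rintro _ ⟨z, hz, rfl⟩
      exact hz
    exact h3 h2
  apply sup_le
  · apply sup_le
    · exact hK'le.trans (sup_le_sup_right le_sup_left _)
    · exact le_sup_of_le_left le_sup_right
  · exact le_sup_right

section Main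

variable {G : Type*} [Group G] [Finite G] (M : Subgroup G) [hMn : M.Normal]

omit [Finite G] in
/-- `|AM/M| * |A ∩ M| = |A|`. -/
theorem card_map_mk_mul (A : Subgroup G) :
    Nat.card (A.map (QuotientGroup.mk' M)) * Nat.card (A ⊓ M : Subgroup G) = Nat.card A := by
  have h1 : (QuotientGroup.mk' M).ker.relIndex A = Nat.card (A.map (QuotientGroup.mk' M)) :=
    Subgroup.relIndex_ker (K := A) (QuotientGroup.mk' M)
  rw [QuotientGroup.ker_mk'] at h1
  have h2 : Nat.card (M.subgroupOf A) * (M.subgroupOf A).index = Nat.card A :=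
    Subgroup.card_mul_index _
  have h3 : Nat.card (M.subgroupOf A) = Nat.card (A ⊓ M : Subgroup G) := by
    rw [← Subgroup.inf_subgroupOf_left]
    exact Nat.card_congr (Subgroup.subgroupOfEquivOfLe inf_le_left).toEquiv
  rw [← h1, ← h3, mul_comm]
  exact h2

/-- Every abelian subgroup of `G / M` is the image of an abelian subgroup of `G`. -/
theorem exists_abelian_lift (hcyc : CycHyp M) (Abar : Subgroup (G ⧸ M))
    (hAbar : IsMulCommutative Abar) :
    ∃ A : Subgroup G, IsMulCommutative A ∧ A.map (QuotientGroup.mk' M) = Abar := by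
  set L : Subgroup G := Abar.comap (QuotientGroup.mk' M) with hL
  have hab : ∀ a b : L, a * b * a⁻¹ * b⁻¹ ∈ M.subgroupOf L := by
    intro a b
    rw [Subgroup.mem_subgroupOf]
    apply (QuotientGroup.eq_one_iff _).mp
    have ha : QuotientGroup.mk' M a ∈ Abar := a.2
    have hb : QuotientGroup.mk' M b ∈ Abar := b.2
    have hc : QuotientGroup.mk' M a * QuotientGroup.mk' M b =
        QuotientGroup.mk' M b * QuotientGroup.mk' M a := setLike_mul_comm ha hb
    have h1 : ((((a * b * a⁻¹ * b⁻¹ : L) : G)) : G ⧸ M) =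
        QuotientGroup.mk' M a * QuotientGroup.mk' M b * (QuotientGroup.mk' M a)⁻¹ *
          (QuotientGroup.mk' M b)⁻¹ := by
      simp
    rw [h1, hc]
    group
  obtain ⟨A₀, hA₀c, hA₀⟩ := exists_abelian_supplement _ ↥L (M.subgroupOf L) rfl hab
    (hcyc.subgroupOf L)
  refine ⟨A₀.map L.subtype, inferInstance, ?_⟩
  apply le_antisymm
  · rintro _ ⟨_, ⟨a, -, rfl⟩, rfl⟩
    exact a.2
  · intro y hy
    obtain ⟨l, rfl⟩ := QuotientGroup.mk_surjective y
    have hl : l ∈ L := hy
    have h1 : (⟨l, hl⟩ : L) ∈ A₀ ⊔ M.subgroupOf L := hA₀ ▸ Subgroup.mem_top _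
    rw [← SetLike.mem_coe, Subgroup.mul_normal] at h1
    obtain ⟨a, ha, m, hm, hamul⟩ := h1
    refine ⟨a.1, Subgroup.mem_map_of_mem _ ha, ?_⟩
    have h2 : l = a.1 * m.1 := by
      have := congrArg Subtype.val hamul
      simpa using this.symm
    have h3 : QuotientGroup.mk' M (m : G) = 1 :=
      (QuotientGroup.eq_one_iff _).mpr (Subgroup.mem_subgroupOf.mp hm)
    show QuotientGroup.mk' M a.1 = QuotientGroup.mk' M l
    rw [h2, map_mul, h3, mul_one]

/-- Abelian lift whose order is determined by the order of the image. -/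
theorem exists_abelian_lift_card (hcyc : CycHyp M) (Abar : Subgroup (G ⧸ M))
    (hAbar : IsMulCommutative Abar) :
    ∃ A : Subgroup G, IsMulCommutative A ∧ A.map (QuotientGroup.mk' M) = Abar ∧
      ∀ q : ℕ, q.Prime → (Nat.card A).factorization q =
        if q ∣ Nat.card Abar then (Nat.card Abar).factorization q + (Nat.card M).factorization q
        else 0 := by
  classical
  have hex : ∃ k : ℕ, ∃ A : Subgroup G, IsMulCommutative A ∧
      A.map (QuotientGroup.mk' M) = Abar ∧ Nat.card A = k := by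
    obtain ⟨A, hA, hAm⟩ := exists_abelian_lift M hcyc Abar hAbar
    exact ⟨_, A, hA, hAm, rfl⟩
  obtain ⟨A, hAc, hAm, hAk⟩ := Nat.find_spec hex
  have hmin : ∀ A' : Subgroup G, IsMulCommutative A' → A'.map (QuotientGroup.mk' M) = Abar →
      Nat.card A ≤ Nat.card A' := by
    intro A' h1 h2
    rw [hAk]
    exact Nat.find_min' hex ⟨A', h1, h2, rfl⟩
  refine ⟨A, hAc, hAm, ?_⟩
  intro q hq
  have hqf : Fact q.Prime := ⟨hq⟩
  by_cases hqA : q ∣ Nat.card Abar
  · rw [if_pos hqA]
    have hcard := card_map_mk_mul M A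
    rw [hAm] at hcard
    have hne1 : Nat.card Abar ≠ 0 := Nat.card_pos.ne'
    have hne2 : Nat.card (A ⊓ M : Subgroup G) ≠ 0 := Nat.card_pos.ne'
    rw [← hcard, Nat.factorization_mul hne1 hne2, Finsupp.add_apply]
    congr 1
    have hdvd : Nat.card (A ⊓ M : Subgroup G) ∣ Nat.card M := Subgroup.card_dvd_of_le inf_le_right
    have hle : (Nat.card (A ⊓ M : Subgroup G)).factorization q ≤ (Nat.card M).factorization q :=
      (Nat.factorization_le_iff_dvd hne2 Nat.card_pos.ne').mpr hdvd q
    apply le_antisymm hle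
    by_cases hqM : q ∣ Nat.card M
    · obtain ⟨ybar, hy⟩ := exists_prime_orderOf_dvd_card' (G := Abar) q hqA
      have hyA : (ybar : G ⧸ M) ∈ A.map (QuotientGroup.mk' M) := hAm ▸ ybar.2
      obtain ⟨a, ha, hay⟩ := hyA
      obtain ⟨e, m₁, hm₁, hc⟩ := Nat.exists_eq_pow_mul_and_not_dvd (Nat.card_pos (α := G)).ne' q
        hq.ne_one
      set x := a ^ m₁ with hx
      have hxA : x ∈ A := Subgroup.pow_mem _ ha _
      have hxM : x ∉ M := by
        intro hxM
        have h1 : QuotientGroup.mk' M x = 1 := (QuotientGroup.eq_one_iff _).mpr hxM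
        rw [hx, map_pow, hay] at h1
        have h2 : orderOf (ybar : G ⧸ M) ∣ m₁ := orderOf_dvd_of_pow_eq_one h1
        rw [Subgroup.orderOf_coe, hy] at h2
        exact hm₁ h2
      have hxq : x ^ q ^ e = 1 := by
        rw [hx, ← pow_mul, mul_comm, ← hc]
        exact pow_card_eq_one'
      have hord : orderOf x ∣ q ^ e := orderOf_dvd_of_pow_eq_one hxq
      obtain ⟨j, -, hj⟩ := (Nat.dvd_prime_pow hq).mp hord
      have hpg : IsPGroup q (Subgroup.zpowers x) :=
        IsPGroup.of_card (n := j) (by rw [Nat.card_zpowers, hj])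
      obtain ⟨T, hT⟩ := hpg.exists_le_sylow
      have hxT : x ∈ (T : Subgroup G) := hT (Subgroup.mem_zpowers x)
      have hTM : ¬ (T : Subgroup G) ≤ M := fun h => hxM (h hxT)
      have hTc : IsCyclic (T : Subgroup G) := hcyc q hq hqM T T.isPGroup' hTM
      rcases le_or_le_of_isCyclic_pgroup (T : Subgroup G) hTc T.isPGroup' ((T : Subgroup G) ⊓ M)
          (Subgroup.zpowers x) inf_le_left hT with h | h
      · have h1 : (T : Subgroup G) ⊓ M ≤ A ⊓ M :=
          le_inf (h.trans (Subgroup.zpowers_le.mpr hxA)) inf_le_right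
        obtain ⟨Q', hQ'⟩ := Cfsg.Agent.Lib.Helper47.exists_sylow_inf_normal T M
        have h2 : Nat.card (Q' : Subgroup M) = q ^ (Nat.card M).factorization q :=
          Q'.card_eq_multiplicity
        rw [hQ'] at h2
        have h3 : Nat.card (((T : Subgroup G) ⊓ M).subgroupOf M) =
            Nat.card ((T : Subgroup G) ⊓ M : Subgroup G) :=
          Nat.card_congr (Subgroup.subgroupOfEquivOfLe inf_le_right).toEquiv
        rw [h3] at h2
        have h4 : q ^ (Nat.card M).factorization q ∣ Nat.card (A ⊓ M : Subgroup G) :=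
          h2 ▸ Subgroup.card_dvd_of_le h1
        exact (hq.pow_dvd_iff_le_factorization hne2).mp h4
      · exact absurd (h (Subgroup.mem_zpowers x)).2 hxM
    · rw [Nat.factorization_eq_zero_of_not_dvd hqM]
      exact Nat.zero_le _
  · rw [if_neg hqA]
    apply Nat.factorization_eq_zero_of_not_dvd
    intro hqA'
    obtain ⟨e, m₀, hm₀, hc⟩ := Nat.exists_eq_pow_mul_and_not_dvd (Nat.card_pos (α := A)).ne' q
      hq.ne_one
    let A' : Subgroup G :=
      { carrier := {a | a ∈ A ∧ a ^ m₀ = 1}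
        mul_mem' := by
          rintro a b ⟨ha, hak⟩ ⟨hb, hbk⟩
          refine ⟨A.mul_mem ha hb, ?_⟩
          have hcm : Commute a b := setLike_mul_comm ha hb
          rw [hcm.mul_pow, hak, hbk, one_mul]
        one_mem' := ⟨A.one_mem, one_pow _⟩
        inv_mem' := by
          rintro a ⟨ha, hak⟩
          exact ⟨A.inv_mem ha, by rw [inv_pow, hak, inv_one]⟩ }
    have hA'le : A' ≤ A := fun a ha => ha.1
    have hA'c : IsMulCommutative A' :=
      ⟨⟨fun x y => Subtype.ext (setLike_mul_comm (hA'le x.2) (hA'le y.2))⟩⟩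
    have hA'm : A'.map (QuotientGroup.mk' M) = Abar := by
      apply le_antisymm
      · rw [← hAm]
        exact Subgroup.map_mono hA'le
      · intro y hy
        rw [← hAm] at hy
        obtain ⟨a, ha, rfl⟩ := hy
        have hcop : IsCoprime ((q ^ e : ℕ) : ℤ) (m₀ : ℤ) :=
          Nat.isCoprime_iff_coprime.mpr
            (Nat.Coprime.pow_left e ((Nat.Prime.coprime_iff_not_dvd hq).mpr hm₀))
        obtain ⟨u, v, huv⟩ := hcop
        have hacard : a ^ Nat.card A = 1 :=
          orderOf_dvd_iff_pow_eq_one.mp (Subgroup.orderOf_dvd_natCard A ha)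
        have ha1 : a = (a ^ (q ^ e)) ^ u * (a ^ m₀) ^ v := by
          rw [← zpow_natCast, ← zpow_natCast, ← zpow_mul, ← zpow_mul, ← zpow_add]
          conv_lhs => rw [← zpow_one a]
          congr 1
          linarith [huv]
        have h1 : a ^ q ^ e ∈ A' :=
          ⟨Subgroup.pow_mem _ ha _, by rw [← pow_mul, ← hc]; exact hacard⟩
        have h2 : QuotientGroup.mk' M (a ^ m₀) = 1 := by
          have h3 : (QuotientGroup.mk' M (a ^ m₀)) ^ q ^ e = 1 := by
            rw [← map_pow, ← pow_mul, mul_comm, ← hc, hacard, map_one]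
          have h4 : orderOf (QuotientGroup.mk' M (a ^ m₀)) ∣ q ^ e := orderOf_dvd_of_pow_eq_one h3
          have h5 : QuotientGroup.mk' M (a ^ m₀) ∈ Abar := by
            rw [← hAm]
            exact Subgroup.mem_map_of_mem _ (Subgroup.pow_mem _ ha _)
          have h6 : orderOf (QuotientGroup.mk' M (a ^ m₀)) ∣ Nat.card Abar :=
            Subgroup.orderOf_dvd_natCard Abar h5
          have h7 : (q ^ e).Coprime (Nat.card Abar) :=
            Nat.Coprime.pow_left e ((Nat.Prime.coprime_iff_not_dvd hq).mpr hqA)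
          exact orderOf_eq_one_iff.mp (Nat.eq_one_of_dvd_coprimes h7 h4 h6)
        refine ⟨(a ^ (q ^ e)) ^ u, Subgroup.zpow_mem _ h1 _, ?_⟩
        conv_rhs => rw [ha1]
        rw [map_mul, map_zpow _ (a ^ m₀), h2, one_zpow, mul_one]
    have hlt : Nat.card A' < Nat.card A := by
      by_contra hge
      push Not at hge
      have heq : A' = A := Subgroup.eq_of_le_of_card_ge hA'le hge
      obtain ⟨a₀, ha₀⟩ := exists_prime_orderOf_dvd_card' (G := A) q hqA'
      have h1 : (a₀ : G) ∈ A' := by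
        rw [heq]
        exact a₀.2
      have h2 : orderOf (a₀ : G) ∣ m₀ := orderOf_dvd_of_pow_eq_one h1.2
      rw [Subgroup.orderOf_coe, ha₀] at h2
      exact hm₀ h2
    exact absurd (hmin A' hA'c hA'm) (not_le.mpr hlt)

end Main

/-- In a finite group in which abelian subgroups of equal order are conjugate, the quotient by a
normal subgroup of odd order has the same property. -/
theorem quotient_conj_of_conj {G : Type*} [Group G] [Finite G]
    (hB : ∀ A B : Subgroup G, IsMulCommutative ↥A → IsMulCommutative ↥B →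
      Nat.card ↥A = Nat.card ↥B → ∃ g : G, B = A.map (MulAut.conj g).toMonoidHom)
    (M : Subgroup G) [M.Normal] (hM : Odd (Nat.card ↥M)) :
    ∀ A B : Subgroup (G ⧸ M), IsMulCommutative ↥A → IsMulCommutative ↥B →
      Nat.card ↥A = Nat.card ↥B → ∃ g : G ⧸ M, B = A.map (MulAut.conj g).toMonoidHom := by
  intro Abar Bbar hA hB' hcard
  have hcyc := cycHyp_of_conj hB M hM
  obtain ⟨A, hAc, hAm, hAf⟩ := exists_abelian_lift_card M hcyc Abar hA
  obtain ⟨B, hBc, hBm, hBf⟩ := exists_abelian_lift_card M hcyc Bbar hB'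
  have hAB : Nat.card A = Nat.card B := by
    apply Nat.eq_of_factorization_eq Nat.card_pos.ne' Nat.card_pos.ne'
    intro q
    by_cases hq : q.Prime
    · rw [hAf q hq, hBf q hq, hcard]
    · rw [Nat.factorization_eq_zero_of_not_prime _ hq,
        Nat.factorization_eq_zero_of_not_prime _ hq]
  obtain ⟨g, hg⟩ := hB A B hAc hBc hAB
  refine ⟨QuotientGroup.mk' M g, ?_⟩
  rw [← hBm, ← hAm, hg, Subgroup.map_map, Subgroup.map_map]
  congr 1

end Cfsg.Agent.Lib.Helper65.AbLift
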