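import Mathlib

/-!
Elementary lemmas on involutions acting on groups of odd order (helper65), used for the
core-killing argument of S3244.
-/

set_option autoImplicit false

namespace Cfsg.Agent.Lib.Helper65

variable {G : Type*} [Group G]

/-- An involution acting without nontrivial fixed points on a finite subgroup inverts it. -/
theorem inverts_of_fixedPointFree [Finite G] {D : Subgroup G} {u : G} (huu : u * u = 1)
    (hn : ∀ d ∈ D, u * d * u⁻¹ ∈ D) (hfix : ∀ d ∈ D, u * d = d * u → d = 1) :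
    ∀ d ∈ D, u * d * u⁻¹ = d⁻¹ := by
  have hui : u⁻¹ = u := inv_eq_of_mul_eq_one_left huu
  obtain ⟨f, hf⟩ : ∃ f : ↥D → ↥D, ∀ t : ↥D, (f t : G) = (t : G)⁻¹ * (u * t * u⁻¹) :=
    ⟨fun t => ⟨(t : G)⁻¹ * (u * t * u⁻¹), D.mul_mem (D.inv_mem t.2) (hn t t.2)⟩, fun t => rfl⟩
  have hinj : Function.Injective f := by
    intro s t hst
    have h1 : (s : G)⁻¹ * (u * s * u⁻¹) = (t : G)⁻¹ * (u * t * u⁻¹) := by
      rw [← hf s, ← hf t, hst]
    have h2 : u * ((t : G) * (s : G)⁻¹) = ((t : G) * (s : G)⁻¹) * u := by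
      have h3 : (t : G) * (s : G)⁻¹ * u = (t : G) * ((s : G)⁻¹ * (u * s * u⁻¹)) * u * (s : G)⁻¹ := by
        group
      rw [h3, h1]; group
    have h4 := hfix _ (D.mul_mem t.2 (D.inv_mem s.2)) h2
    apply Subtype.ext
    have h5 : (s : G) = ((t : G) * (s : G)⁻¹)⁻¹ * (t : G) := by group
    rw [h5, h4]; group
  have hsurj : Function.Surjective f := Finite.surjective_of_injective hinj
  intro d hd
  obtain ⟨t, ht⟩ := hsurj ⟨d, hd⟩
  have h1 : d = (t : G)⁻¹ * (u * t * u⁻¹) := by rw [← hf t, ht]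
  rw [h1, hui]
  have h2 : u * ((t : G)⁻¹ * (u * (t : G) * u)) * u = u * (t : G)⁻¹ * u * (t : G) * (u * u) := by
    group
  rw [h2, huu, mul_one]
  have h3 : ((t : G)⁻¹ * (u * (t : G) * u))⁻¹ = u⁻¹ * (t : G)⁻¹ * u⁻¹ * (t : G) := by group
  rw [h3, hui]

/-- A subgroup inverted by some element is commutative. -/
theorem commute_of_inverts {D : Subgroup G} {u : G} (hinv : ∀ d ∈ D, u * d * u⁻¹ = d⁻¹) :
    ∀ d ∈ D, ∀ e ∈ D, d * e = e * d := by
  intro d hd e he
  have h1 := hinv (d * e) (D.mul_mem hd he)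
  have h2 : u * (d * e) * u⁻¹ = (u * d * u⁻¹) * (u * e * u⁻¹) := by group
  rw [h2, hinv d hd, hinv e he] at h1
  have h3 : d * e = ((d * e)⁻¹)⁻¹ := by group
  rw [h3, ← h1]; group

/-- Elements of a subgroup of odd order are squares in it. -/
theorem exists_sq_of_odd [Finite G] {D : Subgroup G} (hodd : Odd (Nat.card D)) {d : G}
    (hd : d ∈ D) : ∃ t ∈ D, t * t = d := by
  obtain ⟨k, hk⟩ := hodd
  refine ⟨d ^ (k + 1), D.pow_mem hd _, ?_⟩
  have h1 : d ^ Nat.card D = 1 := by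
    have := pow_card_eq_one' (G := ↥D) (x := ⟨d, hd⟩)
    exact congrArg Subtype.val this
  rw [← pow_add]
  have h2 : k + 1 + (k + 1) = Nat.card D + 1 := by omega
  rw [h2, pow_succ, h1, one_mul]

/-- Decomposition of a commutative subgroup of odd order inverted by `z` under a further
involution `u` normalizing it: every element is a product of an element centralized by `u`
and one centralized by `u * z`. -/
theorem exists_decomp_of_inverts [Finite G] {D : Subgroup G} {u z : G}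
    (hodd : Odd (Nat.card D)) (hz : ∀ d ∈ D, z * d * z⁻¹ = d⁻¹) (huu : u * u = 1)
    (hn : ∀ d ∈ D, u * d * u⁻¹ ∈ D) {d : G} (hd : d ∈ D) :
    ∃ d₁ ∈ D, ∃ d₂ ∈ D, d = d₁ * d₂ ∧ u * d₁ = d₁ * u ∧ (u * z) * d₂ = d₂ * (u * z) := by
  have hcomm := commute_of_inverts hz
  have hphi : ∀ x : G, u * (u * x * u⁻¹) * u⁻¹ = x := by
    intro x
    have h0 : u * (u * x * u⁻¹) * u⁻¹ = (u * u) * x * (u * u)⁻¹ := by group
    rw [h0, huu]; group
  obtain ⟨t, ht, rfl⟩ := exists_sq_of_odd hodd hd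
  have h1 : u * t * u⁻¹ ∈ D := hn t ht
  have h2 : u * t⁻¹ * u⁻¹ ∈ D := hn _ (D.inv_mem ht)
  have hc1 : (u * t * u⁻¹) * t = t * (u * t * u⁻¹) := hcomm _ h1 _ ht
  refine ⟨t * (u * t * u⁻¹), D.mul_mem ht h1, t * (u * t⁻¹ * u⁻¹), D.mul_mem ht h2, ?_, ?_, ?_⟩
  · have h3 : t * (u * t * u⁻¹) * (t * (u * t⁻¹ * u⁻¹)) =
        t * ((u * t * u⁻¹) * t) * (u * t⁻¹ * u⁻¹) := by group
    rw [h3, hc1]; group
  · have h3 : u * (t * (u * t * u⁻¹)) =
        (u * t * u⁻¹) * (u * (u * t * u⁻¹) * u⁻¹) * u := by group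
    rw [h3, hphi, hc1]
  · have h3 := hz _ (D.mul_mem ht h2)
    have h4 : u * z * (t * (u * t⁻¹ * u⁻¹)) =
        u * (z * (t * (u * t⁻¹ * u⁻¹)) * z⁻¹) * u⁻¹ * (u * z) := by group
    rw [h4, h3]
    have h5 : u * (t * (u * t⁻¹ * u⁻¹))⁻¹ * u⁻¹ =
        (u * (u * t * u⁻¹) * u⁻¹) * (u * t⁻¹ * u⁻¹) := by group
    rw [h5, hphi]

/-- A finite group generated by pairwise commuting elements of odd order has odd order. -/
theorem odd_card_closure_of_commute [Finite G] {X : Set G}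
    (hcomm : ∀ x ∈ X, ∀ y ∈ X, x * y = y * x) (hodd : ∀ x ∈ X, ∃ n : ℕ, Odd n ∧ x ^ n = 1) :
    Odd (Nat.card (Subgroup.closure X)) ∧
      ∀ x ∈ Subgroup.closure X, ∀ y ∈ Subgroup.closure X, x * y = y * x := by
  have hc : ∀ x ∈ Subgroup.closure X, ∀ y ∈ Subgroup.closure X, x * y = y * x := by
    intro x hx y hy
    have h1 : Subgroup.closure X ≤ Subgroup.centralizer (Subgroup.closure X : Set G) := by
      rw [Subgroup.closure_le]
      intro a ha
      rw [SetLike.mem_coe, Subgroup.centralizer_closure]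
      rw [Subgroup.mem_centralizer_iff]
      intro b hb
      exact hcomm b hb a ha
    have h2 := h1 hy
    rw [Subgroup.mem_centralizer_iff] at h2
    exact h2 x hx
  refine ⟨?_, hc⟩
  have hall : ∀ x ∈ Subgroup.closure X, ∃ n : ℕ, Odd n ∧ x ^ n = 1 := by
    intro x hx
    induction hx using Subgroup.closure_induction with
    | mem x hx => exact hodd x hx
    | one => exact ⟨1, odd_one, one_pow 1⟩
    | mul x y hx hy ihx ihy =>
      obtain ⟨n, hn, hxn⟩ := ihx
      obtain ⟨m, hm, hym⟩ := ihy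
      refine ⟨n * m, hn.mul hm, ?_⟩
      have h1 : Commute x y := hc x hx y hy
      rw [h1.mul_pow, pow_mul, hxn, one_pow, mul_comm n m, pow_mul, hym, one_pow, one_mul]
    | inv x hx ih =>
      obtain ⟨n, hn, hxn⟩ := ih
      exact ⟨n, hn, by rw [inv_pow, hxn, inv_one]⟩
  by_contra hne
  rw [Nat.not_odd_iff_even, even_iff_two_dvd] at hne
  obtain ⟨g, hg⟩ := exists_prime_orderOf_dvd_card' (G := ↥(Subgroup.closure X)) 2 hne
  obtain ⟨n, hn, hgn⟩ := hall g g.2
  have h1 : g ^ n = 1 := Subtype.ext (by simpa using hgn)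
  have h2 := orderOf_dvd_of_pow_eq_one h1
  rw [hg] at h2
  exact (Nat.not_even_iff_odd.mpr hn) (even_iff_two_dvd.mpr h2)

/-- A subgroup with more than four elements has an element outside any four given ones. -/
theorem exists_mem_ne_four [Finite G] {E : Subgroup G} (hE : 4 < Nat.card E) (a b c d : G) :
    ∃ u ∈ E, u ≠ a ∧ u ≠ b ∧ u ≠ c ∧ u ≠ d := by
  classical
  by_contra hne
  push Not at hne
  have h1 : (E : Set G) ⊆ ({a, b, c, d} : Finset G) := by
    intro u hu
    by_cases h1 : u = a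
    · simp [h1]
    by_cases h2 : u = b
    · simp [h2]
    by_cases h3 : u = c
    · simp [h3]
    have := hne u hu h1 h2 h3
    simp [this]
  have h2 : Nat.card E ≤ ({a, b, c, d} : Finset G).card := by
    rw [← Set.ncard_coe_finset, ← Nat.card_coe_set_eq]
    exact Set.ncard_le_ncard h1 (Finset.finite_toSet _)
  have h3 := Finset.card_le_four (a := a) (b := b) (c := c) (d := d)
  omega

/-- An involution `c` normalizing an elementary abelian 2-group `E` with more than four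
elements commutes with some element of `E` other than `1` and a given `z`. -/
theorem exists_commute_mem_ne [Finite G] {E : Subgroup G} {c : G} (z : G)
    (hE4 : 4 < Nat.card E) (hE2 : ∀ e ∈ E, e * e = 1) (hEc : ∀ e ∈ E, ∀ f ∈ E, e * f = f * e)
    (hcc : c * c = 1) (hcE : ∀ e ∈ E, c * e * c⁻¹ ∈ E) :
    ∃ b ∈ E, b ≠ 1 ∧ b ≠ z ∧ c * b = b * c := by
  by_contra hno
  push Not at hno
  have hphi : ∀ x : G, c * (c * x * c⁻¹) * c⁻¹ = x := by
    intro x
    have h0 : c * (c * x * c⁻¹) * c⁻¹ = (c * c) * x * (c * c)⁻¹ := by group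
    rw [h0, hcc]; group
  -- `f e = e * (c e c⁻¹)` commutes with `c`
  have hA : ∀ e ∈ E, c * (e * (c * e * c⁻¹)) = (e * (c * e * c⁻¹)) * c := by
    intro e he
    have h3 : c * (e * (c * e * c⁻¹)) =
        (c * e * c⁻¹) * (c * (c * e * c⁻¹) * c⁻¹) * c := by group
    rw [h3, hphi, hEc _ (hcE e he) e he]
  have hB : ∀ e ∈ E, e * (c * e * c⁻¹) = 1 → c * e = e * c := by
    intro e he h1
    have h2 : c * e * c⁻¹ = e⁻¹ := by
      have : c * e * c⁻¹ = e⁻¹ * (e * (c * e * c⁻¹)) := by group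
      rw [this, h1, mul_one]
    have h3 : e⁻¹ = e := inv_eq_of_mul_eq_one_left (hE2 e he)
    rw [h3] at h2
    have : c * e = (c * e * c⁻¹) * c := by group
    rw [this, h2]
  have hC : ∀ e ∈ E, e ≠ 1 → e ≠ z → e * (c * e * c⁻¹) = z := by
    intro e he he1 hez
    by_contra hne
    have hfE : e * (c * e * c⁻¹) ∈ E := E.mul_mem he (hcE e he)
    by_cases h1 : e * (c * e * c⁻¹) = 1
    · exact hno e he he1 hez (hB e he h1)
    · exact hno _ hfE h1 hne (hA e he)
  obtain ⟨e, he, he1, hez, -, -⟩ := exists_mem_ne_four hE4 1 z 1 1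
  obtain ⟨e', he', he'1, he'z, he'e, he'ez⟩ := exists_mem_ne_four hE4 1 z e (e * z)
  have hee : e * e' ∈ E := E.mul_mem he he'
  have hei : e⁻¹ = e := inv_eq_of_mul_eq_one_left (hE2 e he)
  have hzz : z * z = 1 := by
    have := hC e he he1 hez
    rw [← this]
    exact hE2 _ (E.mul_mem he (hcE e he))
  have h1 : e * e' ≠ 1 := by
    intro h
    apply he'e
    have : e' = e⁻¹ * (e * e') := by group
    rw [this, h, mul_one, hei]
  have h2 : e * e' ≠ z := by
    intro h
    apply he'ez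
    have : e' = e⁻¹ * (e * e') := by group
    rw [this, h, hei]
  have hmul : (e * e') * (c * (e * e') * c⁻¹) =
      (e * (c * e * c⁻¹)) * (e' * (c * e' * c⁻¹)) := by
    have h3 : c * (e * e') * c⁻¹ = (c * e * c⁻¹) * (c * e' * c⁻¹) := by group
    rw [h3]
    have h4 := hEc e' he' (c * e * c⁻¹) (hcE e he)
    calc e * e' * (c * e * c⁻¹ * (c * e' * c⁻¹))
        = e * (e' * (c * e * c⁻¹)) * (c * e' * c⁻¹) := by group
      _ = e * ((c * e * c⁻¹) * e') * (c * e' * c⁻¹) := by rw [h4]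
      _ = _ := by group
  rw [hC e he he1 hez, hC e' he' he'1 he'z, hzz] at hmul
  exact hno _ hee h1 h2 (hB _ hee hmul)

end Cfsg.Agent.Lib.Helper65
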