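import Mathlib
import Cfsg.Prelude.Def_Local
import Cfsg.Prelude.Def_CaseTheorems
import Cfsg.Prelude.Def_OddOrderLocal
import Cfsg.Agent.Lib.Helper22.Balance
import Cfsg.Agent.Lib.Helper53.PGroups
import Cfsg.Agent.Lib.Helper53.Basic
import Cfsg.Agent.Lib.Helper65.CoreKillAux

/-!
Core killing for groups of "early characteristic 2 type" (helper65).

Let `S` be a Sylow 2-subgroup of the finite group `G` having a self-centralizing normal
subgroup `A` of rank at least 3, such that `S` normalizes no nontrivial subgroup of odd order and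
the centralizers of involutions have trivial 2-layer.  Then `O(C_G(c)) = 1` for every involution
`c`, and hence `C_{C(c)}(O_2(C(c))) ≤ O_2(C(c))`.
-/

set_option autoImplicit false

namespace Cfsg.Agent.Lib.Helper65

open Cfsg

section Theta

variable {G : Type*} [Group G] [Finite G]

theorem theta_le (c : G) : centralizerPPrimeCore 2 c ≤ Subgroup.centralizer ({c} : Set G) := by
  rintro _ ⟨y, -, rfl⟩
  exact y.2

theorem theta_commute {c x : G} (hx : x ∈ centralizerPPrimeCore 2 c) : x * c = c * x :=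
  Subgroup.mem_centralizer_singleton_iff.mp (theta_le c hx)

theorem theta_coprime (c : G) : (Nat.card (centralizerPPrimeCore 2 c)).Coprime 2 := by
  unfold centralizerPPrimeCore
  rw [Subgroup.card_map_of_injective (Subgroup.subtype_injective _)]
  exact Cfsg.Agent.Lib.Helper22.card_pPrimeCore_coprime 2 _

theorem theta_odd (c : G) : Odd (Nat.card (centralizerPPrimeCore 2 c)) :=
  Nat.Coprime.odd_of_right (theta_coprime c)

theorem theta_conj_mem {c g x : G} (hg : g * c = c * g) (hx : x ∈ centralizerPPrimeCore 2 c) :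
    g * x * g⁻¹ ∈ centralizerPPrimeCore 2 c := by
  have hgC : g ∈ Subgroup.centralizer ({c} : Set G) :=
    Subgroup.mem_centralizer_singleton_iff.mpr hg
  have hn : (pPrimeCore 2 ↥(Subgroup.centralizer ({c} : Set G))).Normal :=
    Cfsg.Agent.Lib.Helper22.pPrimeCore_normal' 2 _
  obtain ⟨y, hy, rfl⟩ := hx
  exact ⟨⟨g, hgC⟩ * y * ⟨g, hgC⟩⁻¹, hn.conj_mem y hy ⟨g, hgC⟩, rfl⟩

theorem le_theta {c : G} {Y : Subgroup G} (hY : Y ≤ Subgroup.centralizer ({c} : Set G))
    (hodd : Odd (Nat.card Y))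
    (hn : ∀ g : G, g * c = c * g → ∀ y ∈ Y, g * y * g⁻¹ ∈ Y) :
    Y ≤ centralizerPPrimeCore 2 c := by
  have h1 : Subgroup.centralizer ({c} : Set G) ≤ Subgroup.normalizer (Y : Set G) :=
    Cfsg.Agent.Lib.Helper53.le_normalizer_of_conj_mem
      (fun g hg y hy => hn g (Subgroup.mem_centralizer_singleton_iff.mp hg) y hy)
  exact Cfsg.Agent.Lib.Helper22.le_map_pPrimeCore_of_normal_chain 2 hY le_rfl h1
    Subgroup.le_normalizer (Nat.Coprime.symm (Nat.coprime_two_left.mpr hodd))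

theorem theta_conj {c x : G} (g : G) (hx : x ∈ centralizerPPrimeCore 2 c) :
    g * x * g⁻¹ ∈ centralizerPPrimeCore 2 (g * c * g⁻¹) := by
  have hmem : ∀ y : G, y ∈ (centralizerPPrimeCore 2 c).map (MulAut.conj g).toMonoidHom ↔
      g⁻¹ * y * g ∈ centralizerPPrimeCore 2 c := by
    intro y
    constructor
    · rintro ⟨w, hw, rfl⟩
      have : g⁻¹ * ((MulAut.conj g).toMonoidHom w) * g = w := by
        simp [MulAut.conj_apply, mul_assoc]
      rw [this]; exact hw
    · intro hy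
      refine ⟨g⁻¹ * y * g, hy, ?_⟩
      simp [MulAut.conj_apply, mul_assoc]
  have hle : (centralizerPPrimeCore 2 c).map (MulAut.conj g).toMonoidHom ≤
      centralizerPPrimeCore 2 (g * c * g⁻¹) := by
    apply le_theta
    · intro y hy
      rw [Subgroup.mem_centralizer_singleton_iff]
      have h1 := theta_commute ((hmem y).mp hy)
      have h2 : y * (g * c * g⁻¹) = g * ((g⁻¹ * y * g) * c) * g⁻¹ := by group
      rw [h2, h1]; group
    · rw [Subgroup.card_map_of_injective (MulEquiv.injective _)]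
      exact theta_odd c
    · intro h hh y hy
      rw [hmem] at hy ⊢
      have h1 : (g⁻¹ * h * g) * c = c * (g⁻¹ * h * g) := by
        have h2 : g⁻¹ * h * g * c = g⁻¹ * (h * (g * c * g⁻¹)) * g := by group
        rw [h2, hh]; group
      have h3 := theta_conj_mem h1 hy
      have h4 : g⁻¹ * h * g * (g⁻¹ * y * g) * (g⁻¹ * h * g)⁻¹ = g⁻¹ * (h * y * h⁻¹) * g := by
        group
      rwa [h4] at h3
  apply hle
  rw [hmem]
  have : g⁻¹ * (g * x * g⁻¹) * g = x := by group
  rw [this]; exact hx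

theorem theta_pow_eq_one {c x : G} (hx : x ∈ centralizerPPrimeCore 2 c) :
    ∃ n : ℕ, Odd n ∧ x ^ n = 1 := by
  refine ⟨_, theta_odd c, ?_⟩
  have := pow_card_eq_one' (G := ↥(centralizerPPrimeCore 2 c)) (x := ⟨x, hx⟩)
  exact congrArg Subtype.val this

end Theta

section Kill

variable {G : Type*} [Group G] [Finite G] (S : Sylow 2 G) (E : Subgroup G) (z : G)
  (hSE : ∀ s ∈ (S : Subgroup G), ∀ e ∈ E, s * e * s⁻¹ ∈ E)
  (hE2 : ∀ e ∈ E, e * e = 1)
  (hEc : ∀ e ∈ E, ∀ f ∈ E, e * f = f * e)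
  (hE4 : 4 < Nat.card E)
  (hinv : ∀ X : Subgroup G, Odd (Nat.card ↥X) →
    (S : Subgroup G) ≤ Subgroup.normalizer (X : Set G) → X = ⊥)
  (hL : ∀ b : G, b ≠ 1 → b * b = 1 →
    pLayer 2 ↥(Subgroup.centralizer ({b} : Set G)) = ⊥)
  (hzE : z ∈ E) (hz1 : z ≠ 1) (hzS : ∀ s ∈ (S : Subgroup G), s * z = z * s)

include hinv hzS in
theorem theta_z_eq_bot : centralizerPPrimeCore 2 z = ⊥ := by
  apply hinv _ (theta_odd z)
  apply Cfsg.Agent.Lib.Helper53.le_normalizer_of_conj_mem
  intro s hs x hx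
  exact theta_conj_mem (hzS s hs) hx

include hL in
/-- Balance for involutions: `O(C(x)) ∩ C(y) ≤ O(C(y))`. -/
theorem theta_balance {x y : G} (hxy : x * y = y * x) (hxx : x * x = 1) (hy1 : y ≠ 1)
    (hyy : y * y = 1) {d : G} (hd : d ∈ centralizerPPrimeCore 2 x) (hdy : y * d = d * y) :
    d ∈ centralizerPPrimeCore 2 y := by
  have : Fact (Nat.Prime 2) := ⟨Nat.prime_two⟩
  have h1 := Cfsg.Agent.Lib.Helper22.centralizerPPrimeCore_inf_le 2 x y hxy (k := 1)
    (by rw [pow_one, pow_two]; exact hxx) (hL y hy1 hyy)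
  exact h1 (Subgroup.mem_inf.mpr ⟨hd, Subgroup.mem_centralizer_singleton_iff.mpr hdy.symm⟩)

include hE2 hEc hinv hL hzE hz1 hzS in
theorem theta_inverts {b : G} (hb : b ∈ E) :
    ∀ d ∈ centralizerPPrimeCore 2 b, z * d * z⁻¹ = d⁻¹ := by
  apply inverts_of_fixedPointFree (hE2 z hzE)
  · intro d hd
    exact theta_conj_mem (hEc z hzE b hb) hd
  · intro d hd hzd
    have h1 := theta_balance hL (hEc b hb z hzE) (hE2 b hb) hz1 (hE2 z hzE) hd hzd
    rw [theta_z_eq_bot S z hinv hzS] at h1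
    exact Subgroup.mem_bot.mp h1

include hE2 hEc hinv hL hzE hz1 hzS in
theorem theta_commute_main {b b' : G} (hb : b ∈ E) (hb' : b' ∈ E) (hb1 : b ≠ 1)
    (hb'1 : b' ≠ 1) (he0 : b * b' * z ≠ 1) :
    ∀ d ∈ centralizerPPrimeCore 2 b, ∀ d' ∈ centralizerPPrimeCore 2 b', d * d' = d' * d := by
  intro d hd d' hd'
  have hib := theta_inverts S E z hE2 hEc hinv hL hzE hz1 hzS hb
  have hib' := theta_inverts S E z hE2 hEc hinv hL hzE hz1 hzS hb'
  have he0E : b * b' * z ∈ E := E.mul_mem (E.mul_mem hb hb') hzE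
  have hie := theta_inverts S E z hE2 hEc hinv hL hzE hz1 hzS he0E
  obtain ⟨d₁, hd₁, d₂, hd₂, rfl, hd₁u, hd₂u⟩ := exists_decomp_of_inverts (theta_odd b) hib
    (hE2 b' hb') (fun x hx => theta_conj_mem (hEc b' hb' b hb) hx) hd
  obtain ⟨d'₁, hd'₁, d'₂, hd'₂, rfl, hd'₁u, hd'₂u⟩ := exists_decomp_of_inverts (theta_odd b')
    hib' (hE2 b hb) (fun x hx => theta_conj_mem (hEc b hb b' hb') hx) hd'
  have h1 : d₁ ∈ centralizerPPrimeCore 2 b' :=
    theta_balance hL (hEc b hb b' hb') (hE2 b hb) hb'1 (hE2 b' hb') hd₁ hd₁u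
  have h2 : d'₁ ∈ centralizerPPrimeCore 2 b :=
    theta_balance hL (hEc b' hb' b hb) (hE2 b' hb') hb1 (hE2 b hb) hd'₁ hd'₁u
  have h3 : d₂ ∈ centralizerPPrimeCore 2 (b * b' * z) := by
    apply theta_balance hL (hEc b hb _ he0E) (hE2 b hb) he0 (hE2 _ he0E) hd₂
    have h5 := theta_commute hd₂
    calc b * b' * z * d₂ = b * (b' * z * d₂) := by group
      _ = b * (d₂ * (b' * z)) := by rw [hd₂u]
      _ = (b * d₂) * (b' * z) := by group
      _ = (d₂ * b) * (b' * z) := by rw [h5]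
      _ = d₂ * (b * b' * z) := by group
  have h4 : d'₂ ∈ centralizerPPrimeCore 2 (b * b' * z) := by
    apply theta_balance hL (hEc b' hb' _ he0E) (hE2 b' hb') he0 (hE2 _ he0E) hd'₂
    have h5 := theta_commute hd'₂
    have h6 := hEc b hb b' hb'
    calc b * b' * z * d'₂ = b' * b * z * d'₂ := by rw [h6]
      _ = b' * (b * z * d'₂) := by group
      _ = b' * (d'₂ * (b * z)) := by rw [hd'₂u]
      _ = (b' * d'₂) * (b * z) := by group
      _ = (d'₂ * b') * (b * z) := by rw [h5]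
      _ = d'₂ * (b' * b * z) := by group
      _ = d'₂ * (b * b' * z) := by rw [h6]
  have c11 : Commute d₁ d'₁ := commute_of_inverts hib' d₁ h1 d'₁ hd'₁
  have c12 : Commute d₁ d'₂ := commute_of_inverts hib' d₁ h1 d'₂ hd'₂
  have c21 : Commute d₂ d'₁ := commute_of_inverts hib d₂ hd₂ d'₁ h2
  have c22 : Commute d₂ d'₂ := commute_of_inverts hie d₂ h3 d'₂ h4
  exact ((c11.mul_right c12).mul_left (c21.mul_right c22)).eq

include hE2 hEc hE4 hinv hL hzE hz1 hzS in
theorem theta_commute_all {b b' : G} (hb : b ∈ E) (hb' : b' ∈ E) (hb1 : b ≠ 1)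
    (hb'1 : b' ≠ 1) :
    ∀ d ∈ centralizerPPrimeCore 2 b, ∀ d' ∈ centralizerPPrimeCore 2 b', d * d' = d' * d := by
  by_cases he0 : b * b' * z = 1
  · intro d hd d' hd'
    have hib := theta_inverts S E z hE2 hEc hinv hL hzE hz1 hzS hb
    have hzi : z⁻¹ = z := inv_eq_of_mul_eq_one_left (hE2 z hzE)
    obtain ⟨u, hu, hu1, hub, huz, hubz⟩ := exists_mem_ne_four hE4 1 b z (b * z)
    obtain ⟨d₁, hd₁, d₂, hd₂, rfl, hd₁u, hd₂u⟩ := exists_decomp_of_inverts (theta_odd b) hib
      (hE2 u hu) (fun x hx => theta_conj_mem (hEc u hu b hb) hx) hd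
    have huzE : u * z ∈ E := E.mul_mem hu hzE
    have huz1 : u * z ≠ 1 := by
      intro h
      apply huz
      rw [← hzi]; exact eq_inv_of_mul_eq_one_left h
    have h1 : d₁ ∈ centralizerPPrimeCore 2 u :=
      theta_balance hL (hEc b hb u hu) (hE2 b hb) hu1 (hE2 u hu) hd₁ hd₁u
    have h2 : d₂ ∈ centralizerPPrimeCore 2 (u * z) :=
      theta_balance hL (hEc b hb _ huzE) (hE2 b hb) huz1 (hE2 _ huzE) hd₂ hd₂u
    have c1 : Commute d₁ d' := by
      refine theta_commute_main S E z hE2 hEc hinv hL hzE hz1 hzS hu hb' hu1 hb'1 ?_ d₁ h1 d' hd'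
      intro h
      exact hub (mul_right_cancel (mul_right_cancel (h.trans he0.symm)))
    have c2 : Commute d₂ d' := by
      refine theta_commute_main S E z hE2 hEc hinv hL hzE hz1 hzS huzE hb' huz1 hb'1 ?_
        d₂ h2 d' hd'
      intro h
      apply hubz
      have h3 : u * z = b := mul_right_cancel (mul_right_cancel (h.trans he0.symm))
      rw [← h3, mul_assoc, hE2 z hzE, mul_one]
    exact (c1.mul_left c2).eq
  · exact theta_commute_main S E z hE2 hEc hinv hL hzE hz1 hzS hb hb' hb1 hb'1 he0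

include hSE hE2 hEc hE4 hinv hL hzE hz1 hzS in
theorem theta_E_eq_bot {b : G} (hb : b ∈ E) (hb1 : b ≠ 1) : centralizerPPrimeCore 2 b = ⊥ := by
  obtain ⟨X, hX⟩ : ∃ X : Set G, X = {x | ∃ b ∈ E, b ≠ 1 ∧ x ∈ centralizerPPrimeCore 2 b} :=
    ⟨_, rfl⟩
  have hXc : ∀ x ∈ X, ∀ y ∈ X, x * y = y * x := by
    intro x hx y hy
    rw [hX] at hx hy
    obtain ⟨b₁, hb₁, hb₁1, hx⟩ := hx
    obtain ⟨b₂, hb₂, hb₂1, hy⟩ := hy
    exact theta_commute_all S E z hE2 hEc hE4 hinv hL hzE hz1 hzS hb₁ hb₂ hb₁1 hb₂1 x hx y hy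
  have hXo : ∀ x ∈ X, ∃ n : ℕ, Odd n ∧ x ^ n = 1 := by
    intro x hx
    rw [hX] at hx
    obtain ⟨b₁, -, -, hx⟩ := hx
    exact theta_pow_eq_one hx
  obtain ⟨hWodd, -⟩ := odd_card_closure_of_commute hXc hXo
  have hW : Subgroup.closure X = ⊥ := by
    apply hinv _ hWodd
    apply Cfsg.Agent.Lib.Helper53.le_normalizer_of_conj_mem
    intro s hs w hw
    induction hw using Subgroup.closure_induction with
    | mem x hx =>
      apply Subgroup.subset_closure
      rw [hX] at hx ⊢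
      obtain ⟨b₁, hb₁, hb₁1, hx⟩ := hx
      refine ⟨s * b₁ * s⁻¹, hSE s hs b₁ hb₁, ?_, theta_conj s hx⟩
      intro h
      apply hb₁1
      have h' : b₁ = s⁻¹ * (s * b₁ * s⁻¹) * s := by group
      rw [h', h]; group
    | one => rw [mul_one, mul_inv_cancel]; exact Subgroup.one_mem _
    | mul x y hx hy ihx ihy =>
      have h' : s * (x * y) * s⁻¹ = (s * x * s⁻¹) * (s * y * s⁻¹) := by group
      rw [h']; exact Subgroup.mul_mem _ ihx ihy
    | inv x hx ih =>
      have h' : s * x⁻¹ * s⁻¹ = (s * x * s⁻¹)⁻¹ := by group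
      rw [h']; exact Subgroup.inv_mem _ ih
  rw [eq_bot_iff, ← hW]
  intro x hx
  apply Subgroup.subset_closure
  rw [hX]
  exact ⟨b, hb, hb1, hx⟩

include hSE hE2 hEc hE4 hinv hL hzE hz1 hzS in
theorem theta_S_eq_bot {c : G} (hc : c ∈ (S : Subgroup G)) (hcc : c * c = 1) :
    centralizerPPrimeCore 2 c = ⊥ := by
  obtain ⟨b, hb, hb1, hbz, hcb⟩ := exists_commute_mem_ne z hE4 hE2 hEc hcc
    (fun e he => hSE c hc e he)
  rw [eq_bot_iff]
  intro d hd
  rw [Subgroup.mem_bot]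
  have hcz : c * z = z * c := hzS c hc
  have hzi : z⁻¹ = z := inv_eq_of_mul_eq_one_left (hE2 z hzE)
  have hzinv : ∀ d ∈ centralizerPPrimeCore 2 c, z * d * z⁻¹ = d⁻¹ := by
    apply inverts_of_fixedPointFree (hE2 z hzE)
    · intro d hd
      exact theta_conj_mem hcz.symm hd
    · intro d hd hzd
      have h1 := theta_balance hL hcz hcc hz1 (hE2 z hzE) hd hzd
      rw [theta_z_eq_bot S z hinv hzS] at h1
      exact Subgroup.mem_bot.mp h1
  obtain ⟨d₁, hd₁, d₂, hd₂, rfl, hd₁u, hd₂u⟩ := exists_decomp_of_inverts (theta_odd c) hzinv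
    (hE2 b hb) (fun x hx => theta_conj_mem hcb.symm hx) hd
  have hbzE : b * z ∈ E := E.mul_mem hb hzE
  have hbz1 : b * z ≠ 1 := by
    intro h
    apply hbz
    rw [← hzi]; exact eq_inv_of_mul_eq_one_left h
  have hcbz : c * (b * z) = (b * z) * c := by
    rw [← mul_assoc, hcb, mul_assoc, hcz, mul_assoc]
  have h1 : d₁ ∈ centralizerPPrimeCore 2 b :=
    theta_balance hL hcb hcc hb1 (hE2 b hb) hd₁ hd₁u
  have h2 : d₂ ∈ centralizerPPrimeCore 2 (b * z) :=
    theta_balance hL hcbz hcc hbz1 (hE2 _ hbzE) hd₂ hd₂u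
  rw [theta_E_eq_bot S E z hSE hE2 hEc hE4 hinv hL hzE hz1 hzS hb hb1, Subgroup.mem_bot] at h1
  rw [theta_E_eq_bot S E z hSE hE2 hEc hE4 hinv hL hzE hz1 hzS hbzE hbz1, Subgroup.mem_bot] at h2
  rw [h1, h2, mul_one]

include hSE hE2 hEc hE4 hinv hL hzE hz1 hzS in
theorem theta_eq_bot_aux {c : G} (hcc : c * c = 1) : centralizerPPrimeCore 2 c = ⊥ := by
  have : Fact (Nat.Prime 2) := ⟨Nat.prime_two⟩
  have hQ : IsPGroup 2 (Subgroup.zpowers c) := by
    apply IsPGroup.of_card_dvd_pow (n := 1)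
    rw [Nat.card_zpowers]
    apply orderOf_dvd_of_pow_eq_one
    rw [pow_one, pow_two]; exact hcc
  obtain ⟨n, hn⟩ := Cfsg.Agent.Lib.Helper53.exists_conj_le_sylow S hQ
  have h1 := hn c (Subgroup.mem_zpowers c)
  have h2 : (n * c * n⁻¹) * (n * c * n⁻¹) = 1 := by
    have h' : (n * c * n⁻¹) * (n * c * n⁻¹) = n * (c * c) * n⁻¹ := by group
    rw [h', hcc]; group
  have h3 := theta_S_eq_bot S E z hSE hE2 hEc hE4 hinv hL hzE hz1 hzS h1 h2
  rw [eq_bot_iff]
  intro x hx
  have h4 := theta_conj n hx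
  rw [h3, Subgroup.mem_bot] at h4
  rw [Subgroup.mem_bot]
  have h' : x = n⁻¹ * (n * x * n⁻¹) * n := by group
  rw [h', h4]; group

end Kill

section Wrapper

variable {G : Type*} [Group G] [Finite G]

omit [Finite G] in
theorem mem_zpowers_of_sq_eq_one {u x : G} (huu : u * u = 1) (h : x ∈ Subgroup.zpowers u) :
    x = 1 ∨ x = u := by
  obtain ⟨k, rfl⟩ := Subgroup.mem_zpowers_iff.mp h
  rcases Int.even_or_odd' k with ⟨m, hm | hm⟩
  · left; rw [hm, zpow_mul, zpow_two, huu, one_zpow]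
  · right; rw [hm, zpow_add, zpow_mul, zpow_two, huu, one_zpow, one_mul, zpow_one]

omit [Finite G] in
/-- The normalizer of the group generated by an involution is its centralizer. -/
theorem normalizer_zpowers_eq_centralizer {u : G} (hu1 : u ≠ 1) (huu : u * u = 1) :
    Subgroup.normalizer (Subgroup.zpowers u : Set G) = Subgroup.centralizer ({u} : Set G) := by
  apply le_antisymm
  · intro g hg
    rw [Subgroup.mem_centralizer_singleton_iff]
    have h1 : g * u * g⁻¹ ∈ Subgroup.zpowers u :=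
      (Subgroup.mem_normalizer_iff.mp hg u).mp (Subgroup.mem_zpowers u)
    rcases mem_zpowers_of_sq_eq_one huu h1 with h | h
    · exfalso; apply hu1
      have h' : u = g⁻¹ * (g * u * g⁻¹) * g := by group
      rw [h', h]; group
    · calc g * u = g * u * g⁻¹ * g := by group
        _ = u * g := by rw [h]
  · have h1 : Subgroup.centralizer ({u} : Set G) =
        Subgroup.centralizer (Subgroup.zpowers u : Set G) := by
      rw [Subgroup.zpowers_eq_closure, Subgroup.centralizer_closure]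
    rw [h1]
    exact Subgroup.centralizer_le_normalizer _

/-- If every 2-local subgroup is 2-constrained, centralizers of involutions have trivial
2-layer. -/
theorem pLayer_centralizer_eq_bot
    (hcon : ∀ T : Subgroup G, IsPGroup 2 ↥T → T ≠ ⊥ →
      Cfsg.IsPConstrained 2 ↥(Subgroup.normalizer (T : Set G)))
    (b : G) (hb1 : b ≠ 1) (hbb : b * b = 1) :
    pLayer 2 ↥(Subgroup.centralizer ({b} : Set G)) = ⊥ := by
  have : Fact (Nat.Prime 2) := ⟨Nat.prime_two⟩
  have hQ : IsPGroup 2 (Subgroup.zpowers b) := by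
    apply IsPGroup.of_card_dvd_pow (n := 1)
    rw [Nat.card_zpowers]
    apply orderOf_dvd_of_pow_eq_one
    rw [pow_one, pow_two]; exact hbb
  have hne : Subgroup.zpowers b ≠ ⊥ := by
    intro h
    exact hb1 (Subgroup.zpowers_eq_bot.mp h)
  have h1 := hcon _ hQ hne
  rw [normalizer_zpowers_eq_centralizer hb1 hbb] at h1
  exact Cfsg.Agent.Lib.Helper22.isPConstrained_iff.mp h1

/-- **Core killing.** Let `S` be a Sylow 2-subgroup of `G` with a self-centralizing normal
subgroup `A` of rank at least 3, such that `S` normalizes no nontrivial subgroup of odd order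
and centralizers of involutions have trivial 2-layer. Then `O(C_G(c)) = 1` for all `c` with
`c² = 1`. -/
theorem theta_eq_bot (S : Sylow 2 G) (A : Subgroup G) (hA : Cfsg.IsSCN (S : Subgroup G) A)
    (hA3 : ¬ Cfsg.PRankLE 2 2 ↥A)
    (hinv : ∀ X : Subgroup G, Odd (Nat.card ↥X) →
      (S : Subgroup G) ≤ Subgroup.normalizer (X : Set G) → X = ⊥)
    (hL : ∀ b : G, b ≠ 1 → b * b = 1 →
      pLayer 2 ↥(Subgroup.centralizer ({b} : Set G)) = ⊥)
    {c : G} (hcc : c * c = 1) : centralizerPPrimeCore 2 c = ⊥ := by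
  have : Fact (Nat.Prime 2) := ⟨Nat.prime_two⟩
  obtain ⟨hAS, hSA, hAC⟩ := hA
  have hAc : ∀ a ∈ A, ∀ b ∈ A, a * b = b * a := by
    intro a ha b hb
    have h1 : a ∈ (S : Subgroup G) ⊓ Subgroup.centralizer (A : Set G) := by rw [hAC]; exact ha
    exact (Subgroup.mem_centralizer_iff.mp (Subgroup.mem_inf.mp h1).2 b hb).symm
  obtain ⟨E, hE⟩ : ∃ E : Subgroup G, ∀ a : G, a ∈ E ↔ a ∈ A ∧ a * a = 1 :=
    ⟨{ carrier := {a | a ∈ A ∧ a * a = 1}
       mul_mem' := by
         rintro a b ⟨ha, haa⟩ ⟨hb, hbb⟩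
         refine ⟨A.mul_mem ha hb, ?_⟩
         calc a * b * (a * b) = a * (b * a) * b := by group
           _ = a * (a * b) * b := by rw [hAc b hb a ha]
           _ = (a * a) * (b * b) := by group
           _ = 1 := by rw [haa, hbb, mul_one]
       one_mem' := ⟨A.one_mem, mul_one 1⟩
       inv_mem' := by
         rintro a ⟨ha, haa⟩
         refine ⟨A.inv_mem ha, ?_⟩
         rw [← mul_inv_rev, haa, inv_one] }, fun a => Iff.rfl⟩
  have hES : E ≤ (S : Subgroup G) := fun a ha => hAS ((hE a).mp ha).1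
  have hSE : ∀ s ∈ (S : Subgroup G), ∀ e ∈ E, s * e * s⁻¹ ∈ E := by
    intro s hs e he
    rw [hE] at he ⊢
    refine ⟨(Subgroup.mem_normalizer_iff.mp (hSA hs) e).mp he.1, ?_⟩
    have h' : s * e * s⁻¹ * (s * e * s⁻¹) = s * (e * e) * s⁻¹ := by group
    rw [h', he.2]; group
  have hE2 : ∀ e ∈ E, e * e = 1 := fun e he => ((hE e).mp he).2
  have hEc : ∀ e ∈ E, ∀ f ∈ E, e * f = f * e :=
    fun e he f hf => hAc e ((hE e).mp he).1 f ((hE f).mp hf).1
  have hE4 : 4 < Nat.card E := by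
    unfold Cfsg.PRankLE at hA3
    push Not at hA3
    obtain ⟨B, -, hB2, hBcard⟩ := hA3
    have h1 : B.map A.subtype ≤ E := by
      rintro _ ⟨x, hx, rfl⟩
      rw [hE]
      refine ⟨x.2, ?_⟩
      have h2 := hB2 x hx
      have h3 : ((x ^ 2 : ↥A) : G) = 1 := by rw [h2]; rfl
      rw [← h3, pow_two]; rfl
    have h4 := Subgroup.card_le_of_le h1
    rw [Subgroup.card_map_of_injective (Subgroup.subtype_injective _)] at h4
    norm_num at hBcard
    omega
  have hEne : E ≠ ⊥ := by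
    intro h
    rw [h, Subgroup.card_bot] at hE4
    omega
  obtain ⟨z, hzE, hz1, hzS⟩ := Cfsg.Agent.Lib.Helper53.exists_mem_center_of_normal_subgroup
    (p := 2) S.isPGroup' hES (Cfsg.Agent.Lib.Helper53.le_normalizer_of_conj_mem hSE) hEne
  exact theta_eq_bot_aux S E z hSE hE2 hEc hE4 hinv hL hzE hz1 hzS hcc

/-- A finite group with trivial `2'`-core and trivial 2-layer satisfies
`C(O_2) ≤ O_2`. -/
theorem centralizer_pCore_le_of_cores {X : Type*} [Group X] [Finite X]
    (hO : pPrimeCore 2 X = ⊥) (hL : pLayer 2 X = ⊥) :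
    Subgroup.centralizer (pCore 2 X : Set X) ≤ pCore 2 X := by
  have : Fact (Nat.Prime 2) := ⟨Nat.prime_two⟩
  have hE : layer (X ⧸ pPrimeCore 2 X) = ⊥ := by
    rw [← Cfsg.Agent.Lib.Helper22.pLayer_map_mk 2, hL, Subgroup.map_bot]
  have h2 := Cfsg.Agent.Lib.Helper22.layer_map_equiv
    ((QuotientGroup.quotientMulEquivOfEq hO).trans QuotientGroup.quotientBot)
  rw [hE, Subgroup.map_bot] at h2
  exact Cfsg.Agent.Lib.Helper22.centralizer_pCore_le_of_layer_eq_bot hO h2.symm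

/-- Under the hypotheses of `theta_eq_bot`, the centralizer `C` of an involution satisfies
`C_C(O_2(C)) ≤ O_2(C)`. -/
theorem centralizer_pCore_centralizer_le (S : Sylow 2 G) (A : Subgroup G)
    (hA : Cfsg.IsSCN (S : Subgroup G) A) (hA3 : ¬ Cfsg.PRankLE 2 2 ↥A)
    (hinv : ∀ X : Subgroup G, Odd (Nat.card ↥X) →
      (S : Subgroup G) ≤ Subgroup.normalizer (X : Set G) → X = ⊥)
    (hcon : ∀ T : Subgroup G, IsPGroup 2 ↥T → T ≠ ⊥ →
      Cfsg.IsPConstrained 2 ↥(Subgroup.normalizer (T : Set G)))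
    {c : G} (hc1 : c ≠ 1) (hcc : c * c = 1) :
    Subgroup.centralizer
        (pCore 2 ↥(Subgroup.centralizer ({c} : Set G)) : Set ↥(Subgroup.centralizer ({c} : Set G)))
      ≤ pCore 2 ↥(Subgroup.centralizer ({c} : Set G)) := by
  have hL := pLayer_centralizer_eq_bot hcon
  have h1 := theta_eq_bot S A hA hA3 hinv hL hcc
  apply centralizer_pCore_le_of_cores _ (hL c hc1 hcc)
  unfold centralizerPPrimeCore at h1
  exact (Subgroup.map_eq_bot_iff_of_injective _ (Subgroup.subtype_injective _)).mp h1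

end Wrapper

end Cfsg.Agent.Lib.Helper65
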