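import Mathlib
import Cfsg.Agent.Lib.Helper91.SO2Wrap
import Cfsg.Agent.Lib.Helper91.SSFive2
import Cfsg.Agent.Lib.Helper91.SSBrauer

/-!
# S0983: the principal `11`-block with `[N(P) : C(P)] = 2` and an involution in `C(P)`

The block consists of the trivial character, one non-exceptional character `χ` of degree `x`
with `χ = a = ±1` on the `11`-singular elements, and five exceptional characters of degree `y`,
with `-δ y + 1 + a x = 0`.  If the only pair of consecutive divisors allowed by the congruences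
is `(x, y) = (10, 9)`, the value of `χ` at an involution of `C(P)` gives a contradiction.
-/

set_option autoImplicit false

namespace Cfsg.Agent.Lib.Helper65.OrdEleven

open Cfsg Cfsg.Agent.Lib.Helper17 Cfsg.Agent.Lib.Helper91.SS

universe u

theorem case_eleven {G : Type u} [Group G] [Finite G] [IsSimpleGroup G]
    (hGn : ¬ (Nat.card G).Prime)
    (harith : ∀ x y : ℕ, x ∣ Nat.card G → y ∣ Nat.card G → x ≠ 1 →
      ¬ (x % 11 = 1 ∧ y = x + 1) ∧ (x % 11 = 10 ∧ x = y + 1 → x = 10))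
    (P : Sylow 11 G) (hP : Nat.card (P : Subgroup G) = 11)
    (hm : (Subgroup.centralizer ((P : Subgroup G) : Set G)).relIndex
      (Subgroup.normalizer ((P : Subgroup G) : Set G)) = 2)
    (hC2 : 2 ∣ Nat.card (Subgroup.centralizer ((P : Subgroup G) : Set G))) : False := by
  have : Fact (Nat.Prime 11) := ⟨by norm_num⟩
  have : Fact (Nat.Prime 2) := ⟨Nat.prime_two⟩
  obtain ⟨c', hc'⟩ := exists_prime_orderOf_dvd_card'
    (G := Subgroup.centralizer ((P : Subgroup G) : Set G)) 2 hC2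
  obtain ⟨c, hcdef⟩ : ∃ c : G, c = (c' : G) := ⟨_, rfl⟩
  have hc : c ∈ Subgroup.centralizer ((P : Subgroup G) : Set G) := by rw [hcdef]; exact c'.2
  have hc2 : orderOf c = 2 := by rw [hcdef, Subgroup.orderOf_coe]; exact hc'
  obtain ⟨k, χ, a, η, d, δ, hk, hδ, hχ, hη1, hηP, hnorm, hrel, hj, hreal⟩ :=
    brauer_chars hGn 11 P hP 2 (by norm_num) hm
  have h2 : ((11 - 1) / 2 : ℕ) = 5 := by norm_num
  rw [h2] at hnorm hrel
  push_cast at hnorm hrel
  have hirrη := η.2
  obtain ⟨hyd, hypos, hydvd⟩ := Cfsg.Agent.Lib.Helper79.irr_charDegree hirrη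
  obtain ⟨y, hydef⟩ : ∃ y, y = Cfsg.charDegree ((η : IrrCharacter G) : G → ℂ) := ⟨_, rfl⟩
  rw [← hydef] at hyd hypos hydvd
  have hk' : k = 0 ∨ k = 1 := by omega
  rcases hk' with rfl | rfl
  · simp only [Finset.univ_eq_empty, Finset.sum_empty, add_zero] at hnorm hrel
    have hd : -1 ≤ d ∧ d ≤ 1 := by
      constructor <;> rcases hδ with rfl | rfl <;>
        nlinarith [sq_nonneg (d - 1), sq_nonneg (d + 1)]
    obtain ⟨hd1, hd2⟩ := hd
    rcases hδ with rfl | rfl <;> interval_cases d <;> norm_num at hnorm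
  · simp only [Fin.sum_univ_succ, Fin.sum_univ_zero, add_zero] at hnorm hrel
    obtain ⟨ha0, hx1, hxa⟩ := hχ 0
    have hirr := (χ 0).2
    obtain ⟨hxd, hxpos, hxdvd⟩ := Cfsg.Agent.Lib.Helper79.irr_charDegree hirr
    have hmod : (Cfsg.charDegree ((χ 0 : IrrCharacter G) : G → ℂ) : ℤ) ≡ a 0 [ZMOD 11] := by
      have h := Cfsg.Agent.Lib.Helper90.BrauerDeg.degree_modEq hirr 11 (P : Subgroup G) hP (a 0)
        (fun y hy hy1 => hxa y y (isPPart_self (by norm_num) _ hP y hy hy1) hy hy1)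
      exact_mod_cast h
    obtain ⟨n, kk, hv1, hv2, hv3, hv4⟩ := involution_value hGn 11 (by norm_num)
      (P : Subgroup G) hP (χ 0) hx1 (a 0) hxa c hc hc2
    obtain ⟨x, hxdef⟩ : ∃ x, x = Cfsg.charDegree ((χ 0 : IrrCharacter G) : G → ℂ) := ⟨_, rfl⟩
    rw [← hxdef] at hxd hxpos hxdvd hmod hv1 hv3 hv4
    push_cast at hv1
    have hx1' : x ≠ 1 := by
      intro h
      apply hx1
      rw [hxd, h]
      norm_num
    have hrel1 := hrel 1 (by rw [orderOf_one]; norm_num)
    rw [hxd, hyd] at hrel1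
    have hrel1' : (5 * d - δ) * (y : ℤ) + 1 + a 0 * (x : ℤ) = 0 := by
      have h : (((5 * d - δ) * (y : ℤ) + 1 + a 0 * (x : ℤ) : ℤ) : ℂ) = 0 := by
        push_cast
        exact hrel1
      exact_mod_cast h
    have hd : -1 ≤ d ∧ d ≤ 1 := by
      constructor <;> rcases hδ with rfl | rfl <;>
        nlinarith [sq_nonneg (a 0), sq_nonneg (d - 1), sq_nonneg (d + 1)]
    have ha2 : a 0 ^ 2 = 1 ∧ d = 0 := by
      obtain ⟨hd1, hd2⟩ := hd
      have hapos : 0 < a 0 ^ 2 := by positivity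
      obtain ⟨A, hA⟩ : ∃ A, A = a 0 ^ 2 := ⟨_, rfl⟩
      rw [← hA] at hnorm hapos ⊢
      interval_cases d <;> rcases hδ with rfl | rfl <;> norm_num at hnorm ⊢ <;> omega
    obtain ⟨ha2, hd0⟩ := ha2
    subst hd0
    have ha : a 0 = 1 ∨ a 0 = -1 := by
      have h1 : (a 0 - 1) * (a 0 + 1) = 0 := by nlinarith
      rcases mul_eq_zero.mp h1 with h | h
      · left; omega
      · right; omega
    have harith' := harith x y hxdvd hydvd hx1'
    unfold Int.ModEq at hmod
    rcases hδ with h | h <;> rcases ha with h' | h' <;> rw [h, h'] at hrel1' <;>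
      rw [h'] at hmod hv1
    · exact harith'.1 ⟨by omega, by omega⟩
    · omega
    · omega
    · have hx := harith'.2 ⟨by omega, by omega⟩
      omega

end Cfsg.Agent.Lib.Helper65.OrdEleven
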