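import Mathlib
import Cfsg.Agent.Lib.Helper65.OrdEleven

/-!
# S0983: no non-abelian simple group of order `3960`
-/

set_option autoImplicit false

namespace Cfsg.Agent.Lib.Helper65.Ord3960

open Cfsg Cfsg.Agent.Lib.Helper17 Cfsg.Agent.Lib.Helper93.SO Cfsg.Agent.Lib.Helper91.SO2

universe u

theorem arith_3960 (x y : ℕ) (hx : x ∣ 3960) (hy : y ∣ 3960) (hx1 : x ≠ 1) :
    ¬ (x % 11 = 1 ∧ y = x + 1) ∧ (x % 11 = 10 ∧ x = y + 1 → x = 10) := by
  have hx' : x ∈ Nat.divisors 3960 := Nat.mem_divisors.mpr ⟨hx, by norm_num⟩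
  have hy' : y ∈ Nat.divisors 3960 := Nat.mem_divisors.mpr ⟨hy, by norm_num⟩
  have key : ∀ x ∈ Nat.divisors 3960, ∀ y ∈ Nat.divisors 3960, x ≠ 1 →
      ¬ (x % 11 = 1 ∧ y = x + 1) ∧ (x % 11 = 10 ∧ x = y + 1 → x = 10) := by decide +kernel
  exact key x hx' y hy' hx1

theorem case_3960 {G : Type u} [Group G] [Finite G] [IsSimpleGroup G] (hG : Nat.card G = 3960)
    (P : Sylow 11 G) (hP : Nat.card (P : Subgroup G) = 11)
    (hr : (Subgroup.centralizer ((P : Subgroup G) : Set G)).relIndex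
      (Subgroup.normalizer ((P : Subgroup G) : Set G)) = 2)
    (hC : Nat.card (Subgroup.centralizer ((P : Subgroup G) : Set G)) = 44) : False := by
  refine Cfsg.Agent.Lib.Helper65.OrdEleven.case_eleven (by rw [hG]; norm_num) ?_ P hP hr
    (by rw [hC]; norm_num)
  intro x y hx hy hx1
  rw [hG] at hx hy
  exact arith_3960 x y hx hy hx1

theorem noSimple_3960 : NoSimple.{u} 3960 :=
  noSimple_of_cases 3960 11 2 360 (by norm_num) (by norm_num) (by norm_num) (by norm_num)
    (by norm_num) (by norm_num) (by norm_num) [(2, 44)] (by decide +kernel)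
    (by
      intro rc hrc G _ _ _ hG P hP hr hC
      simp only [List.mem_singleton] at hrc
      subst hrc
      exact case_3960 hG P hP hr hC)

end Cfsg.Agent.Lib.Helper65.Ord3960
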