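import Cfsg.Agent.Lib.Helper65.Cover2

set_option autoImplicit false

namespace Cfsg.Agent.Lib.Helper65

open MulAction

/-- Orbit bound: a normal `p`-subgroup `Q` that is not central in `H` has at most
`(p+1)|Q|/(2p)` orbits under conjugation by `H`. -/
theorem orbit_bound {H : Type*} [Group H] [Finite H] {p : ℕ} [Fact p.Prime] (Q : Subgroup H)
    [Q.Normal] (hQ : IsPGroup p Q) (hnc : ¬ (Q ≤ Subgroup.center H)) :
    2 * p * Nat.card (orbitRel.Quotient (ConjAct H) Q) ≤ (p + 1) * Nat.card Q := by
  classical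
  have hp : p.Prime := Fact.out
  have : Fintype H := Fintype.ofFinite H
  have : Fintype (orbitRel.Quotient (ConjAct H) Q) := Fintype.ofFinite _
  have hB := sum_card_fixedBy_eq_card_orbits_mul_card_group (ConjAct H) Q
  set C : Subgroup H := Subgroup.centralizer (Q : Set H) with hC
  have hCtop : C ≠ ⊤ := by
    intro htop
    apply hnc
    intro x hx
    rw [Subgroup.mem_center_iff]
    intro g
    have hg : g ∈ C := htop ▸ Subgroup.mem_top g
    exact (hg x hx).symm
  obtain ⟨n, hn⟩ := IsPGroup.iff_card.1 hQ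
  obtain ⟨m, hm⟩ : ∃ m, p = m + 1 := ⟨p - 1, by have := hp.pos; omega⟩
  have hfix : ∀ g : ConjAct H, p * Fintype.card (fixedBy Q g) ≤
      Nat.card Q + if ConjAct.ofConjAct g ∈ C then m * Nat.card Q else 0 := by
    intro g
    let K : Subgroup Q := (Subgroup.centralizer {ConjAct.ofConjAct g}).subgroupOf Q
    have hmemK : ∀ x : Q, x ∈ K ↔ (x : H) * ConjAct.ofConjAct g = ConjAct.ofConjAct g * (x : H) := by
      intro x
      simp only [K, Subgroup.mem_subgroupOf, Subgroup.mem_centralizer_iff, Set.mem_singleton_iff,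
        forall_eq]
      exact eq_comm
    have hset : fixedBy Q g = (K : Set Q) := by
      ext x
      rw [mem_fixedBy, SetLike.mem_coe, hmemK, Subtype.ext_iff, ConjAct.Subgroup.val_conj_smul,
        ConjAct.smul_def]
      constructor
      · intro h
        have := congrArg (· * ConjAct.ofConjAct g) h
        simp only [inv_mul_cancel_right] at this
        exact this.symm
      · intro h
        rw [← h, mul_inv_cancel_right]
    have hcard : Fintype.card (fixedBy Q g) = Nat.card K := by
      rw [← Nat.card_eq_fintype_card]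
      exact Nat.card_congr (Equiv.setCongr hset)
    rw [hcard]
    split_ifs with hg
    · have h1 : Nat.card K ≤ Nat.card Q := Subgroup.card_le_card_group K
      calc p * Nat.card K ≤ p * Nat.card Q := Nat.mul_le_mul_left _ h1
        _ = Nat.card Q + m * Nat.card Q := by rw [hm]; ring
    · have hK : K ≠ ⊤ := by
        intro htop
        apply hg
        rw [hC, Subgroup.mem_centralizer_iff]
        intro x hx
        have : (⟨x, hx⟩ : Q) ∈ K := htop ▸ Subgroup.mem_top _
        exact (hmemK ⟨x, hx⟩).1 this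
      have hdvd : Nat.card K ∣ p ^ n := hn ▸ Subgroup.card_subgroup_dvd_card K
      obtain ⟨j, hj, hKj⟩ := (Nat.dvd_prime_pow hp).1 hdvd
      have hjn : j < n := by
        rcases hj.lt_or_eq with h | h
        · exact h
        · exfalso
          apply hK
          apply Subgroup.eq_top_of_card_eq
          rw [hKj, h, hn]
      rw [hKj, hn, add_zero, ← pow_succ']
      exact Nat.pow_le_pow_right hp.pos hjn
  have hcardC : (Finset.univ.filter (fun g : ConjAct H => ConjAct.ofConjAct g ∈ C)).card =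
      Nat.card C := by
    rw [← Fintype.card_subtype, ← Nat.card_eq_fintype_card]
    exact Nat.card_congr (ConjAct.ofConjAct.toEquiv.subtypeEquiv (fun g => Iff.rfl))
  have hsum : ∑ g : ConjAct H, (Nat.card Q + if ConjAct.ofConjAct g ∈ C then m * Nat.card Q else 0)
      = Nat.card H * Nat.card Q + Nat.card C * (m * Nat.card Q) := by
    rw [Finset.sum_add_distrib, Finset.sum_const, Finset.card_univ, ← Finset.sum_filter,
      Finset.sum_const, hcardC, smul_eq_mul, smul_eq_mul, ConjAct.card]
    simp only [Nat.card_eq_fintype_card]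
  have hle : p * (Fintype.card (orbitRel.Quotient (ConjAct H) Q) * Fintype.card (ConjAct H)) ≤
      Nat.card H * Nat.card Q + Nat.card C * (m * Nat.card Q) := by
    rw [← hB, Finset.mul_sum, ← hsum]
    exact Finset.sum_le_sum (fun g _ => hfix g)
  have hC2 : 2 * Nat.card C ≤ Nat.card H := by
    have h1 := Subgroup.card_mul_index C
    have h2 := Subgroup.one_lt_index_of_ne_top hCtop
    calc 2 * Nat.card C = Nat.card C * 2 := by ring
      _ ≤ Nat.card C * C.index := Nat.mul_le_mul_left _ h2
      _ = Nat.card H := h1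
  rw [ConjAct.card, ← Nat.card_eq_fintype_card, ← Nat.card_eq_fintype_card] at hle
  have hHpos : 0 < Nat.card H := Nat.card_pos
  apply Nat.le_of_mul_le_mul_right _ hHpos
  have h3 : 2 * (Nat.card C * (m * Nat.card Q)) ≤ Nat.card H * (m * Nat.card Q) := by
    calc 2 * (Nat.card C * (m * Nat.card Q)) = (2 * Nat.card C) * (m * Nat.card Q) := by ring
      _ ≤ Nat.card H * (m * Nat.card Q) := Nat.mul_le_mul_right _ hC2
  calc 2 * p * Nat.card (orbitRel.Quotient (ConjAct H) Q) * Nat.card H
      = 2 * (p * (Nat.card (orbitRel.Quotient (ConjAct H) Q) * Nat.card H)) := by ring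
    _ ≤ 2 * (Nat.card H * Nat.card Q + Nat.card C * (m * Nat.card Q)) := Nat.mul_le_mul_left _ hle
    _ = 2 * (Nat.card H * Nat.card Q) + 2 * (Nat.card C * (m * Nat.card Q)) := by ring
    _ ≤ 2 * (Nat.card H * Nat.card Q) + Nat.card H * (m * Nat.card Q) := Nat.add_le_add_left h3 _
    _ = (p + 1) * Nat.card Q * Nat.card H := by rw [hm]; ring

/-- The type of classes of `p`-elements. -/
abbrev PClass (p : ℕ) (G : Type*) [Group G] : Type _ :=
  {c : ConjClasses G // ∀ x ∈ c.carrier, ∃ k : ℕ, orderOf x = p ^ k}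

theorem pClass_mk_prop {G : Type*} [Group G] {p : ℕ} (x : G) (hx : ∃ k : ℕ, orderOf x = p ^ k) :
    ∀ y ∈ (ConjClasses.mk x).carrier, ∃ k : ℕ, orderOf y = p ^ k := by
  intro y hy
  rw [ConjClasses.mem_carrier_iff_mk_eq, ConjClasses.mk_eq_mk_iff_isConj, isConj_iff] at hy
  obtain ⟨c, hc⟩ := hy
  obtain ⟨k, hk⟩ := hx
  refine ⟨k, ?_⟩
  rw [← hk, ← hc]
  exact ((MulAut.conj c).orderOf_eq y).symm

/-- Every class of `p`-elements meets a given Sylow `p`-subgroup. -/
theorem pClass_exists_rep {G : Type*} [Group G] [Finite G] {p : ℕ} [Fact p.Prime] (P : Sylow p G)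
    (c : PClass p G) : ∃ x : G, x ∈ (P : Subgroup G) ∧ ConjClasses.mk x = c.1 := by
  obtain ⟨c, hc⟩ := c
  obtain ⟨g, rfl⟩ := ConjClasses.exists_rep c
  obtain ⟨k, hk⟩ := hc g ConjClasses.mem_carrier_mk
  have hpg : IsPGroup p (Subgroup.zpowers g) :=
    IsPGroup.of_card (n := k) (by rw [Nat.card_zpowers, hk])
  obtain ⟨Q, hQ⟩ := hpg.exists_le_sylow
  obtain ⟨h, hh⟩ := MulAction.exists_smul_eq G Q P
  refine ⟨h * g * h⁻¹, ?_, ?_⟩
  · rw [← hh, mem_smul_sylow_iff]
    have : h⁻¹ * (h * g * h⁻¹) * h = g := by group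
    rw [this]
    exact hQ (Subgroup.mem_zpowers g)
  · show ConjClasses.mk (h * g * h⁻¹) = ConjClasses.mk g
    rw [ConjClasses.mk_eq_mk_iff_isConj, isConj_comm, isConj_iff]
    exact ⟨h, rfl⟩

end Cfsg.Agent.Lib.Helper65
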