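import Cfsg.Agent.Lib.Helper65.PClasses

set_option autoImplicit false

namespace Cfsg.Agent.Lib.Helper65

universe u

/-- The type of classes of `σ`-elements. -/
abbrev PiClass (σ : Finset ℕ) (G : Type*) [Group G] : Type _ :=
  {c : ConjClasses G // ∀ x ∈ c.carrier, ∀ r : ℕ, r.Prime → r ∣ orderOf x → r ∈ σ}

theorem piClass_mk_prop {G : Type*} [Group G] (σ : Finset ℕ) (x : G)
    (hx : ∀ r : ℕ, r.Prime → r ∣ orderOf x → r ∈ σ) :
    ∀ y ∈ (ConjClasses.mk x).carrier, ∀ r : ℕ, r.Prime → r ∣ orderOf y → r ∈ σ := by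
  intro y hy r hr hry
  rw [ConjClasses.mem_carrier_iff_mk_eq, ConjClasses.mk_eq_mk_iff_isConj, isConj_iff] at hy
  obtain ⟨c, hc⟩ := hy
  apply hx r hr
  rw [← hc]
  rwa [show orderOf (c * y * c⁻¹) = orderOf y from (MulAut.conj c).orderOf_eq y]

theorem orderOf_zpow_dvd_orderOf {G : Type*} [Group G] (y : G) (v : ℤ) :
    orderOf (y ^ v) ∣ orderOf y := by
  apply orderOf_dvd_of_pow_eq_one
  rw [← zpow_natCast, ← zpow_mul, mul_comm, zpow_mul, zpow_natCast, pow_orderOf_eq_one, one_zpow]

/-- The number of classes of `p`-elements is at most the order of a Sylow `p`-subgroup. -/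
theorem card_pClass_le {G : Type*} [Group G] [Finite G] (p : ℕ) [Fact p.Prime] :
    Nat.card (PClass p G) ≤ p ^ (Nat.card G).factorization p := by
  let P : Sylow p G := default
  rw [← Sylow.card_eq_multiplicity P]
  let f : ↥(P : Subgroup G) → PClass p G := fun x =>
    ⟨ConjClasses.mk (x : G), pClass_mk_prop _ (orderOf_eq_pow_of_mem_sylow P x.2)⟩
  apply Nat.card_le_card_of_surjective f
  intro c
  obtain ⟨x, hx, hxc⟩ := pClass_exists_rep P c
  exact ⟨⟨x, hx⟩, Subtype.ext hxc⟩

/-- Splitting off the `q`-part: the number of classes of `σ ∪ {q}`-elements is at most the number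
of classes of `q`-elements times a bound for the number of classes of `σ`-elements in
centralizers. -/
theorem card_piClass_insert_le {H : Type u} [Group H] [Finite H] (q : ℕ) [Fact q.Prime]
    (σ : Finset ℕ) (B : ℕ)
    (hB : ∀ y : H, Nat.card (PiClass σ ↥(Subgroup.centralizer ({y} : Set H))) ≤ B) :
    Nat.card (PiClass (insert q σ) H) ≤ Nat.card (PClass q H) * B := by
  classical
  have hqp : q.Prime := Fact.out
  let rep : PClass q H → H := fun c => Classical.choose (ConjClasses.exists_rep c.1)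
  have hrep : ∀ c : PClass q H, ConjClasses.mk (rep c) = c.1 :=
    fun c => Classical.choose_spec (ConjClasses.exists_rep c.1)
  let X : PClass q H → Type u := fun c => PiClass σ ↥(Subgroup.centralizer ({rep c} : Set H))
  let rep2 : ∀ c, X c → ↥(Subgroup.centralizer ({rep c} : Set H)) :=
    fun c d => Classical.choose (ConjClasses.exists_rep d.1)
  have hrep2 : ∀ c (d : X c), ConjClasses.mk (rep2 c d) = d.1 :=
    fun c d => Classical.choose_spec (ConjClasses.exists_rep d.1)
  have hcommrep : ∀ c (d : X c), rep c * (rep2 c d : H) = (rep2 c d : H) * rep c := by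
    intro c d
    have := (rep2 c d).2
    rw [Subgroup.mem_centralizer_iff] at this
    exact this (rep c) rfl
  have hprop : ∀ c (d : X c), ∀ r : ℕ, r.Prime → r ∣ orderOf (rep c * (rep2 c d : H)) →
      r ∈ insert q σ := by
    intro c d r hr hdvd
    have hy : ∃ k, orderOf (rep c) = q ^ k :=
      c.2 (rep c) (by rw [ConjClasses.mem_carrier_iff_mk_eq]; exact hrep c)
    have hz : ∀ r : ℕ, r.Prime → r ∣ orderOf (rep2 c d) → r ∈ σ :=
      d.2 (rep2 c d) (by rw [ConjClasses.mem_carrier_iff_mk_eq]; exact hrep2 c d)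
    have hcomm : Commute (rep c) (rep2 c d : H) := hcommrep c d
    have h1 := hcomm.orderOf_mul_dvd_mul_orderOf
    obtain ⟨k, hk⟩ := hy
    have h2 := hdvd.trans h1
    rw [hk] at h2
    rcases (Nat.Prime.dvd_mul hr).1 h2 with h3 | h3
    · have := (Nat.prime_dvd_prime_iff_eq hr hqp).1 (hr.dvd_of_dvd_pow h3)
      rw [this]
      exact Finset.mem_insert_self _ _
    · rw [Subgroup.orderOf_coe] at h3
      exact Finset.mem_insert_of_mem (hz r hr h3)
  let F : (Σ c : PClass q H, X c) → PiClass (insert q σ) H := fun s =>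
    ⟨ConjClasses.mk (rep s.1 * (rep2 s.1 s.2 : H)), piClass_mk_prop _ _ (hprop s.1 s.2)⟩
  have hF : Function.Surjective F := by
    rintro ⟨c, hc⟩
    obtain ⟨x, rfl⟩ := ConjClasses.exists_rep c
    have hx := hc x ConjClasses.mem_carrier_mk
    have hox : orderOf x ≠ 0 := (orderOf_pos x).ne'
    obtain ⟨j, m', u, v, hcop, ho1, ho2, hdec⟩ := exists_pPart_decomp x hox q hqp
    set xq : H := (x ^ m') ^ v with hxq
    set xq' : H := (x ^ q ^ j) ^ u with hxq'
    have hxq_ord : ∃ k, orderOf xq = q ^ k := by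
      have : orderOf xq ∣ q ^ j := by
        rw [← ho1]
        exact orderOf_zpow_dvd_orderOf _ _
      obtain ⟨k, -, hk⟩ := (Nat.dvd_prime_pow hqp).1 this
      exact ⟨k, hk⟩
    let c₀ : PClass q H := ⟨ConjClasses.mk xq, pClass_mk_prop xq hxq_ord⟩
    have h1 : ConjClasses.mk (rep c₀) = ConjClasses.mk xq := hrep c₀
    rw [ConjClasses.mk_eq_mk_iff_isConj, isConj_comm, isConj_iff] at h1
    obtain ⟨g, hg⟩ := h1
    have hcomm0 : xq * xq' = xq' * xq := by
      have h1 : Commute (x ^ m') (x ^ q ^ j) := (Commute.refl x).pow_pow _ _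
      exact (h1.zpow_zpow v u).eq
    have hz0mem : g * xq' * g⁻¹ ∈ Subgroup.centralizer ({rep c₀} : Set H) := by
      rw [Subgroup.mem_centralizer_iff]
      intro h hh
      rw [Set.mem_singleton_iff] at hh
      rw [hh, ← hg]
      calc g * xq * g⁻¹ * (g * xq' * g⁻¹) = g * (xq * xq') * g⁻¹ := by group
        _ = g * (xq' * xq) * g⁻¹ := by rw [hcomm0]
        _ = g * xq' * g⁻¹ * (g * xq * g⁻¹) := by group
    let z₀ : ↥(Subgroup.centralizer ({rep c₀} : Set H)) := ⟨g * xq' * g⁻¹, hz0mem⟩
    have hz0_prop : ∀ r : ℕ, r.Prime → r ∣ orderOf z₀ → r ∈ σ := by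
      intro r hr hdvd
      have h2 : orderOf z₀ = orderOf xq' := by
        rw [← Subgroup.orderOf_coe]
        exact (MulAut.conj g).orderOf_eq xq'
      have h3 : orderOf xq' ∣ m' := by
        rw [← ho2]
        exact orderOf_zpow_dvd_orderOf _ _
      have h4 : r ∣ m' := (h2 ▸ hdvd).trans h3
      have h5 : r ∣ orderOf x := h4.trans (by rw [← ho2]; exact orderOf_pow_dvd (q ^ j))
      have h6 := hx r hr h5
      rcases Finset.mem_insert.1 h6 with h7 | h7
      · exfalso
        rw [h7] at h4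
        exact (Nat.Prime.coprime_iff_not_dvd hqp).1 hcop h4
      · exact h7
    let d : X c₀ := ⟨ConjClasses.mk z₀, piClass_mk_prop σ z₀ hz0_prop⟩
    have h8 : ConjClasses.mk (rep2 c₀ d) = ConjClasses.mk z₀ := hrep2 c₀ d
    rw [ConjClasses.mk_eq_mk_iff_isConj, isConj_comm, isConj_iff] at h8
    obtain ⟨w, hw⟩ := h8
    refine ⟨⟨c₀, d⟩, ?_⟩
    apply Subtype.ext
    show ConjClasses.mk (rep c₀ * (rep2 c₀ d : H)) = ConjClasses.mk x
    rw [ConjClasses.mk_eq_mk_iff_isConj, isConj_comm, isConj_iff]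
    refine ⟨(w : H) * g, ?_⟩
    have hwy : (w : H) * rep c₀ = rep c₀ * (w : H) := by
      have := w.2
      rw [Subgroup.mem_centralizer_iff] at this
      exact (this (rep c₀) rfl).symm
    have hZ : ((rep2 c₀ d : ↥(Subgroup.centralizer ({rep c₀} : Set H))) : H) =
        (w : H) * (g * xq' * g⁻¹) * (w : H)⁻¹ := by
      rw [← hw]
      rfl
    have hwy' : (w : H) * rep c₀ * (w : H)⁻¹ = rep c₀ := by
      rw [hwy, mul_inv_cancel_right]
    calc (w : H) * g * x * ((w : H) * g)⁻¹
        = (w : H) * g * (xq' * xq) * ((w : H) * g)⁻¹ := by rw [← hdec]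
      _ = ((w : H) * (g * xq' * g⁻¹) * (w : H)⁻¹) * ((w : H) * (g * xq * g⁻¹) * (w : H)⁻¹) := by
          group
      _ = ((w : H) * (g * xq' * g⁻¹) * (w : H)⁻¹) * rep c₀ := by rw [hg, hwy']
      _ = (rep2 c₀ d : H) * rep c₀ := by rw [hZ]
      _ = rep c₀ * (rep2 c₀ d : H) := (hcommrep c₀ d).symm
  have : Fintype (PClass q H) := Fintype.ofFinite _
  calc Nat.card (PiClass (insert q σ) H) ≤ Nat.card (Σ c : PClass q H, X c) :=
        Nat.card_le_card_of_surjective F hF
    _ = ∑ c, Nat.card (X c) := Nat.card_sigma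
    _ ≤ ∑ _c : PClass q H, B := Finset.sum_le_sum (fun c _ => hB (rep c))
    _ = Nat.card (PClass q H) * B := by
        rw [Finset.sum_const, Finset.card_univ, smul_eq_mul, Nat.card_eq_fintype_card]

/-- The number of classes of `σ`-elements is at most the `σ`-part of the group order. -/
theorem card_piClass_le (σ : Finset ℕ) (hσ : ∀ r ∈ σ, r.Prime) :
    ∀ (H : Type u) [Group H] [Finite H],
      Nat.card (PiClass σ H) ≤ σ.prod (fun r => r ^ (Nat.card H).factorization r) := by
  induction σ using Finset.induction_on with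
  | empty =>
    intro H _ _
    rw [Finset.prod_empty]
    have hone : ∀ a : PiClass ∅ H, a.1 = ConjClasses.mk 1 := by
      rintro ⟨a, ha⟩
      obtain ⟨x, rfl⟩ := ConjClasses.exists_rep a
      have h := ha x ConjClasses.mem_carrier_mk
      have hx : x = 1 := by
        by_contra hne
        have h1 : orderOf x ≠ 1 := fun h1 => hne (orderOf_eq_one_iff.1 h1)
        obtain ⟨r, hr, hrd⟩ := Nat.exists_prime_and_dvd h1
        exact absurd (h r hr hrd) (Finset.notMem_empty r)
      show ConjClasses.mk x = ConjClasses.mk 1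
      rw [hx]
    have : Subsingleton (PiClass ∅ H) :=
      ⟨fun a b => Subtype.ext ((hone a).trans (hone b).symm)⟩
    exact Finite.card_le_one_iff_subsingleton.2 this
  | insert q σ hq ih =>
    intro H _ _
    have hqp : q.Prime := hσ q (Finset.mem_insert_self _ _)
    have : Fact q.Prime := ⟨hqp⟩
    have hσ' : ∀ r ∈ σ, r.Prime := fun r hr => hσ r (Finset.mem_insert_of_mem hr)
    rw [Finset.prod_insert hq]
    have hB : ∀ y : H, Nat.card (PiClass σ ↥(Subgroup.centralizer ({y} : Set H))) ≤
        σ.prod (fun r => r ^ (Nat.card H).factorization r) := by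
      intro y
      refine (ih hσ' _).trans ?_
      apply Finset.prod_le_prod (fun r _ => Nat.zero_le _)
      intro r hr
      apply Nat.pow_le_pow_right (hσ' r hr).pos
      exact (Nat.factorization_le_iff_dvd Nat.card_pos.ne' Nat.card_pos.ne').2
        (Subgroup.card_subgroup_dvd_card _) r
    calc Nat.card (PiClass (insert q σ) H)
        ≤ Nat.card (PClass q H) * σ.prod (fun r => r ^ (Nat.card H).factorization r) :=
          card_piClass_insert_le q σ _ hB
      _ ≤ q ^ (Nat.card H).factorization q * σ.prod (fun r => r ^ (Nat.card H).factorization r) :=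
          Nat.mul_le_mul_right _ (card_pClass_le q)

/-- Combining normal complements for the primes of `π` into a normal `π`-complement. -/
theorem exists_normal_pi_complement_aux {G : Type*} [Group G] [Finite G] (π : Finset ℕ)
    (h : ∀ q ∈ π, ∃ N : Subgroup G, N.Normal ∧ ¬ q ∣ Nat.card N ∧
      (∀ s : ℕ, s.Prime → s ∣ N.index → s = q) ∧ commutator G ≤ N) :
    ∃ N : Subgroup G, N.Normal ∧ (∀ q ∈ π, ¬ q ∣ Nat.card N) ∧
      (∀ s : ℕ, s.Prime → s ∣ N.index → s ∈ π) ∧ commutator G ≤ N := by
  induction π using Finset.induction_on with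
  | empty =>
    refine ⟨⊤, inferInstance, by simp, ?_, le_top⟩
    intro s hs hdvd
    rw [Subgroup.index_top] at hdvd
    exact absurd (Nat.dvd_one.1 hdvd) hs.ne_one
  | insert q σ hq ih =>
    obtain ⟨A, hA, hA1, hA2, hA3⟩ := ih (fun r hr => h r (Finset.mem_insert_of_mem hr))
    obtain ⟨B, hB, hB1, hB2, hB3⟩ := h q (Finset.mem_insert_self _ _)
    refine ⟨A ⊓ B, inferInstance, ?_, ?_, le_inf hA3 hB3⟩
    · intro r hr hdvd
      rcases Finset.mem_insert.1 hr with rfl | hr'
      · exact hB1 (hdvd.trans (Subgroup.card_dvd_of_le inf_le_right))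
      · exact hA1 r hr' (hdvd.trans (Subgroup.card_dvd_of_le inf_le_left))
    · intro s hs hdvd
      have h1 : (A ⊓ B).index = B.relIndex A * A.index := by
        rw [← Subgroup.inf_relIndex_left, Subgroup.relIndex_mul_index inf_le_left]
      rw [h1] at hdvd
      rcases (Nat.Prime.dvd_mul hs).1 hdvd with h2 | h2
      · have := hB2 s hs (h2.trans (Subgroup.relIndex_dvd_index_of_normal B A))
        rw [this]
        exact Finset.mem_insert_self _ _
      · exact Finset.mem_insert_of_mem (hA2 s hs h2)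

end Cfsg.Agent.Lib.Helper65
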