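import Mathlib
import Cfsg.Agent.Lib.Helper65.PClasses
import Cfsg.Agent.Lib.Helper34.NPC
import Cfsg.Agent.Lib.Helper2.PComplement

/-!
# Classes of `2`-elements and normal `2`-complements

If `G` has no normal `2`-complement then `2 * k₂(G) ≤ |P|` for a Sylow `2`-subgroup `P`.
-/

set_option autoImplicit false

namespace Cfsg.Agent.Lib.Helper65

open Cfsg.Agent.Lib.Helper34

universe u

/-- Counting lemma: if every class in `S` contains `n` distinct elements of `T`, then
`n * |S| ≤ |T|`. -/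
theorem fiber_count {G : Type*} [Group G] [Finite G] (p n : ℕ) (S : Set (PClass p G)) (T : Set G)
    (h : ∀ c ∈ S, ∃ f : Fin n → G, Function.Injective f ∧
      ∀ i, f i ∈ T ∧ ConjClasses.mk (f i) = c.1) :
    n * S.ncard ≤ T.ncard := by
  choose f hf1 hf2 using h
  let F : ↥S × Fin n → ↥T := fun ci => ⟨f ci.1.1 ci.1.2 ci.2, (hf2 ci.1.1 ci.1.2 ci.2).1⟩
  have hF : Function.Injective F := by
    rintro ⟨⟨c, hc⟩, i⟩ ⟨⟨c', hc'⟩, i'⟩ hcc
    have h1 : f c hc i = f c' hc' i' := congrArg Subtype.val hcc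
    have h2 : c = c' := by
      apply Subtype.ext
      rw [← (hf2 c hc i).2, ← (hf2 c' hc' i').2, h1]
    subst h2
    have h3 : i = i' := hf1 c hc h1
    subst h3
    rfl
  have h1 := Nat.card_le_card_of_injective F hF
  rw [Nat.card_prod, Nat.card_fin, Nat.card_coe_set_eq, Nat.card_coe_set_eq] at h1
  rw [mul_comm]; exact h1

/-- `p`-elements that agree modulo a normal `p'`-subgroup are conjugate. -/
theorem conj_of_mk_eq {G : Type*} [Group G] [Finite G] (p : ℕ) [Fact p.Prime] (D : Subgroup G)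
    [D.Normal] (hD : (Nat.card D).Coprime p) (x y : G) (hx : ∃ k : ℕ, orderOf x = p ^ k)
    (hy : ∃ k : ℕ, orderOf y = p ^ k)
    (hxy : (QuotientGroup.mk' D) x = (QuotientGroup.mk' D) y) : ∃ d : G, d * x * d⁻¹ = y := by
  have hp : p.Prime := Fact.out
  obtain ⟨kx, hkx⟩ := hx
  obtain ⟨ky, hky⟩ := hy
  set X : Subgroup G := Subgroup.zpowers y with hXdef
  have hX : IsPGroup p X := IsPGroup.of_card (n := ky) (by rw [Nat.card_zpowers, hky])
  have hB : IsPGroup p (Subgroup.zpowers x) :=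
    IsPGroup.of_card (n := kx) (by rw [Nat.card_zpowers, hkx])
  have hXM : X ≤ X ⊔ D := le_sup_left
  have hidx : ¬ p ∣ (X.subgroupOf (X ⊔ D)).index := by
    intro hdvd
    obtain ⟨a, ha⟩ := IsPGroup.iff_card.mp hX
    have h1 : Nat.card (X.subgroupOf (X ⊔ D)) * (X.subgroupOf (X ⊔ D)).index
        = Nat.card (X ⊔ D : Subgroup G) := Subgroup.card_mul_index _
    have h2 : Nat.card (X.subgroupOf (X ⊔ D)) = Nat.card X :=
      Nat.card_congr (Subgroup.subgroupOfEquivOfLe hXM).toEquiv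
    have h3 : Nat.card (D.subgroupOf (X ⊔ D)) * (D.subgroupOf (X ⊔ D)).index
        = Nat.card (X ⊔ D : Subgroup G) := Subgroup.card_mul_index _
    have h4 : Nat.card (D.subgroupOf (X ⊔ D)) = Nat.card D :=
      Nat.card_congr (Subgroup.subgroupOfEquivOfLe (le_sup_right : D ≤ X ⊔ D)).toEquiv
    have h5 : (D.subgroupOf (X ⊔ D)).index = D.relIndex X := Subgroup.relIndex_sup_right X D
    have h6 : D.relIndex X ∣ p ^ a := by rw [← ha]; exact Subgroup.relIndex_dvd_card D X
    have h7 : p ^ (a + 1) ∣ Nat.card D * D.relIndex X := by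
      rw [← h5, ← h4, h3, ← h1, h2, ha, pow_succ]
      exact Nat.mul_dvd_mul_left _ hdvd
    have h8 : p ^ (a + 1) ∣ D.relIndex X :=
      (Nat.Coprime.pow_left (a + 1) hD.symm).dvd_of_dvd_mul_left h7
    have h9 : p ^ (a + 1) ∣ p ^ a := h8.trans h6
    have h10 := (Nat.pow_dvd_pow_iff_le_right hp.one_lt).mp h9
    omega
  have hxL : x ∈ X ⊔ D := by
    have h1 : y⁻¹ * x ∈ D := QuotientGroup.eq.mp hxy.symm
    have h2 : x = y * (y⁻¹ * x) := by group
    rw [h2]
    exact Subgroup.mul_mem _ (hXM (Subgroup.mem_zpowers y)) (le_sup_right (a := X) h1)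
  have hS : IsPGroup p (X.subgroupOf (X ⊔ D)) := hX.comap_subtype
  have hB' : IsPGroup p ((Subgroup.zpowers x).subgroupOf (X ⊔ D)) := hB.comap_subtype
  obtain ⟨n, hn⟩ := exists_conj_le_of_index_coprime (X.subgroupOf (X ⊔ D)) hS hidx _ hB'
  have h1 := hn ⟨x, hxL⟩ (Subgroup.mem_subgroupOf.mpr (Subgroup.mem_zpowers x))
  have h2 : (n : G) * x * (n : G)⁻¹ ∈ X := Subgroup.mem_subgroupOf.mp h1
  refine ⟨(n : G), ?_⟩
  obtain ⟨x0, hx0, d, hd, hxd⟩ := Subgroup.mem_sup_of_normal_right.mp n.2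
  have hcomm : x0 * y = y * x0 := by
    obtain ⟨j, hj⟩ := Subgroup.mem_zpowers_iff.mp hx0
    rw [← hj]
    exact ((Commute.refl y).zpow_left j).eq
  have h3 : (QuotientGroup.mk' D) ((n : G) * x * (n : G)⁻¹) = (QuotientGroup.mk' D) y := by
    have hd1 : (QuotientGroup.mk' D) d = 1 := (QuotientGroup.eq_one_iff d).mpr hd
    rw [map_mul, map_mul, map_inv, ← hxd, map_mul, hd1, mul_one, hxy, ← map_inv, ← map_mul,
      ← map_mul, hcomm]
    congr 1
    group
  exact injOn_mk_of_coprime X D hX hD h2 (Subgroup.mem_zpowers y) h3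

/-- The number of classes of `p`-elements does not decrease on passing to the quotient by a
normal `p'`-subgroup. -/
theorem card_pClass_le_quotient {G : Type u} [Group G] [Finite G] (p : ℕ) [Fact p.Prime]
    (D : Subgroup G) [D.Normal] (hD : (Nat.card D).Coprime p) :
    Nat.card (PClass p G) ≤ Nat.card (PClass p (G ⧸ D)) := by
  have hp : p.Prime := Fact.out
  have hprop : ∀ c : PClass p G, ∀ z ∈ (ConjClasses.map (QuotientGroup.mk' D) c.1).carrier,
      ∃ k : ℕ, orderOf z = p ^ k := by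
    rintro ⟨c, hc⟩
    obtain ⟨g, rfl⟩ := ConjClasses.exists_rep c
    obtain ⟨k, hk⟩ := hc g ConjClasses.mem_carrier_mk
    have h1 : orderOf ((QuotientGroup.mk' D) g) ∣ p ^ k := by
      rw [← hk]; exact orderOf_map_dvd _ g
    obtain ⟨j, -, hj⟩ := (Nat.dvd_prime_pow hp).mp h1
    exact pClass_mk_prop _ ⟨j, hj⟩
  let φ : PClass p G → PClass p (G ⧸ D) := fun c =>
    ⟨ConjClasses.map (QuotientGroup.mk' D) c.1, hprop c⟩
  apply Nat.card_le_card_of_injective φ
  rintro ⟨c, hc⟩ ⟨c', hc'⟩ hcc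
  obtain ⟨g, rfl⟩ := ConjClasses.exists_rep c
  obtain ⟨g', rfl⟩ := ConjClasses.exists_rep c'
  have h1 : ConjClasses.mk ((QuotientGroup.mk' D) g) = ConjClasses.mk ((QuotientGroup.mk' D) g') :=
    congrArg Subtype.val hcc
  rw [ConjClasses.mk_eq_mk_iff_isConj, isConj_iff] at h1
  obtain ⟨w, hw⟩ := h1
  obtain ⟨v, rfl⟩ := QuotientGroup.mk'_surjective D w
  have hk := hc g ConjClasses.mem_carrier_mk
  have hk' := hc' g' ConjClasses.mem_carrier_mk
  have hk2 : ∃ k : ℕ, orderOf (v * g * v⁻¹) = p ^ k := by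
    obtain ⟨k, hk⟩ := hk
    exact ⟨k, by rw [← hk]; exact (MulAut.conj v).orderOf_eq g⟩
  have h2 : (QuotientGroup.mk' D) (v * g * v⁻¹) = (QuotientGroup.mk' D) g' := by
    rw [map_mul, map_mul, map_inv]; exact hw
  obtain ⟨d, hd⟩ := conj_of_mk_eq p D hD (v * g * v⁻¹) g' hk2 hk' h2
  apply Subtype.ext
  show ConjClasses.mk g = ConjClasses.mk g'
  rw [ConjClasses.mk_eq_mk_iff_isConj, isConj_iff]
  refine ⟨d * v, ?_⟩
  rw [← hd]; group

/-- Sylow `p`-subgroups of the quotient by a normal `p'`-subgroup have the same order. -/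
theorem card_sylow_quotient {G : Type u} [Group G] [Finite G] (p : ℕ) [Fact p.Prime]
    (D : Subgroup G) [D.Normal] (hD : (Nat.card D).Coprime p) (P : Sylow p G)
    (P' : Sylow p (G ⧸ D)) : Nat.card ↥(P' : Subgroup (G ⧸ D)) = Nat.card ↥(P : Subgroup G) := by
  have hp : p.Prime := Fact.out
  rw [Sylow.card_eq_multiplicity, Sylow.card_eq_multiplicity]
  congr 1
  have h2 : Nat.card G = Nat.card (G ⧸ D) * Nat.card D :=
    Subgroup.card_eq_card_quotient_mul_card_subgroup D
  have hnd : ¬ p ∣ Nat.card D := by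
    intro h
    have := Nat.Coprime.eq_one_of_dvd hD.symm h
    exact hp.one_lt.ne' this
  rw [h2, Nat.factorization_mul Nat.card_pos.ne' Nat.card_pos.ne', Finsupp.add_apply,
    Nat.factorization_eq_zero_of_not_dvd hnd, add_zero]

/-- Subgroup step: if `2 * k₂(M) ≤ |P ∩ M|` and the elements of `P` outside `M` are not central
in `P`, then `2 * k₂(G) ≤ |P|`. -/
theorem two_card_le_of_subgroup {G : Type u} [Group G] [Finite G] (P : Sylow 2 G)
    (M : Subgroup G)
    (hZ : ∀ x ∈ (P : Subgroup G), x ∉ M → ∃ u ∈ (P : Subgroup G), u * x * u⁻¹ ≠ x)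
    (hM : 2 * Nat.card (PClass 2 ↥M) ≤ Nat.card ↥((P : Subgroup G) ⊓ M)) :
    2 * Nat.card (PClass 2 G) ≤ Nat.card ↥(P : Subgroup G) := by
  have : Fact (Nat.Prime 2) := ⟨Nat.prime_two⟩
  set S₁ : Set (PClass 2 G) := {c | ∃ x ∈ M, ConjClasses.mk x = c.1} with hS₁
  -- classes meeting `M`
  have h1 : S₁.ncard ≤ Nat.card (PClass 2 ↥M) := by
    rw [← Nat.card_coe_set_eq]
    have hex : ∀ c : ↥S₁, ∃ x : G, x ∈ M ∧ ConjClasses.mk x = c.1.1 := fun c => c.2
    choose r hr1 hr2 using hex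
    have hord : ∀ c : ↥S₁, ∃ k : ℕ, orderOf (⟨r c, hr1 c⟩ : ↥M) = 2 ^ k := by
      intro c
      obtain ⟨k, hk⟩ := c.1.2 (r c) (by rw [← hr2 c]; exact ConjClasses.mem_carrier_mk)
      exact ⟨k, by rw [← hk, ← Subgroup.orderOf_coe]⟩
    let ψ : ↥S₁ → PClass 2 ↥M := fun c =>
      ⟨ConjClasses.mk (⟨r c, hr1 c⟩ : ↥M), pClass_mk_prop _ (hord c)⟩
    apply Nat.card_le_card_of_injective ψ
    intro c c' hcc
    have h2 : ConjClasses.mk (⟨r c, hr1 c⟩ : ↥M) = ConjClasses.mk (⟨r c', hr1 c'⟩ : ↥M) :=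
      congrArg Subtype.val hcc
    rw [ConjClasses.mk_eq_mk_iff_isConj, isConj_iff] at h2
    obtain ⟨w, hw⟩ := h2
    apply Subtype.ext
    apply Subtype.ext
    rw [← hr2 c, ← hr2 c', ConjClasses.mk_eq_mk_iff_isConj, isConj_iff]
    refine ⟨(w : G), ?_⟩
    have := congrArg Subtype.val hw
    simpa using this
  -- classes missing `M`
  have h2 : 2 * S₁ᶜ.ncard ≤ ((P : Subgroup G) : Set G).ncard - (((P : Subgroup G) ⊓ M : Subgroup G) : Set G).ncard := by
    have h3 : 2 * S₁ᶜ.ncard ≤ (((P : Subgroup G) : Set G) \ (((P : Subgroup G) ⊓ M : Subgroup G) : Set G)).ncard := by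
      apply fiber_count 2 2
      intro c hc
      obtain ⟨x, hxP, hxc⟩ := pClass_exists_rep P c
      have hxM : x ∉ M := fun hx => hc ⟨x, hx, hxc⟩
      obtain ⟨u, hu, hux⟩ := hZ x hxP hxM
      have huc : ConjClasses.mk (u * x * u⁻¹) = c.1 := by
        rw [← hxc, ConjClasses.mk_eq_mk_iff_isConj, isConj_comm, isConj_iff]
        exact ⟨u, rfl⟩
      have huM : u * x * u⁻¹ ∉ M := fun hx => hc ⟨_, hx, huc⟩
      refine ⟨![x, u * x * u⁻¹], ?_, ?_⟩
      · intro i j hij
        fin_cases i <;> fin_cases j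
        · rfl
        · exact absurd hij.symm hux
        · exact absurd hij hux
        · rfl
      · intro i
        fin_cases i
        · exact ⟨⟨hxP, fun h => hxM h.2⟩, hxc⟩
        · exact ⟨⟨Subgroup.mul_mem _ (Subgroup.mul_mem _ hu hxP) (Subgroup.inv_mem _ hu),
            fun h => huM h.2⟩, huc⟩
    rw [Set.ncard_sdiff (by intro z hz; exact hz.1)] at h3
    exact h3
  have h4 : S₁.ncard + S₁ᶜ.ncard = Nat.card (PClass 2 G) := Set.ncard_add_ncard_compl S₁
  have h5 : (((P : Subgroup G) ⊓ M : Subgroup G) : Set G).ncard ≤ ((P : Subgroup G) : Set G).ncard :=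
    Set.ncard_le_ncard (by intro z hz; exact hz.1)
  have h6 : ((P : Subgroup G) : Set G).ncard = Nat.card ↥(P : Subgroup G) := rfl
  have h7 : (((P : Subgroup G) ⊓ M : Subgroup G) : Set G).ncard = Nat.card ↥((P : Subgroup G) ⊓ M) := rfl
  omega

/-- An element of odd order acting nontrivially on a normal `2`-subgroup `U` fixes at most a
quarter of its elements. -/
theorem four_card_fixed_le {G : Type u} [Group G] [Finite G] (U : Subgroup G) [hUn : U.Normal]
    (hU : IsPGroup 2 U) (g : G) (hg : (orderOf g).Coprime 2)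
    (hgU : g ∉ Subgroup.centralizer (U : Set G)) :
    4 * Nat.card ↥(U ⊓ Subgroup.centralizer ({g} : Set G)) ≤ Nat.card ↥U := by
  have : Fact (Nat.Prime 2) := ⟨Nat.prime_two⟩
  set A : Subgroup G := U ⊓ Subgroup.centralizer ({g} : Set G) with hA
  have hAU : A ≤ U := inf_le_left
  have hmemA : ∀ z : G, z ∈ A ↔ z ∈ U ∧ g * z = z * g := by
    intro z
    rw [hA, Subgroup.mem_inf, Subgroup.mem_centralizer_iff]
    constructor
    · rintro ⟨h1, h2⟩; exact ⟨h1, h2 g rfl⟩
    · rintro ⟨h1, h2⟩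
      refine ⟨h1, ?_⟩
      intro h hh
      rw [Set.mem_singleton_iff] at hh
      rw [hh]; exact h2
  obtain ⟨q, hqU, hqg⟩ : ∃ q ∈ U, q * g ≠ g * q := by
    by_contra hcon
    push Not at hcon
    exact hgU (Subgroup.mem_centralizer_iff.mpr hcon)
  have hqA : q ∉ A := fun h => hqg ((hmemA q).mp h).2.symm
  obtain ⟨k, hk⟩ := IsPGroup.iff_card.mp hU
  have h1 : Nat.card (A.subgroupOf U) * (A.subgroupOf U).index = Nat.card U :=
    Subgroup.card_mul_index _
  have h2 : Nat.card (A.subgroupOf U) = Nat.card A :=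
    Nat.card_congr (Subgroup.subgroupOfEquivOfLe hAU).toEquiv
  have h3 : (A.subgroupOf U).index ∣ 2 ^ k := by
    rw [← hk, ← h1]; exact Dvd.intro_left _ rfl
  obtain ⟨j, -, hj⟩ := (Nat.dvd_prime_pow Nat.prime_two).mp h3
  have hj0 : j ≠ 0 := by
    rintro rfl
    rw [pow_zero, Subgroup.index_eq_one] at hj
    have : (⟨q, hqU⟩ : ↥U) ∈ A.subgroupOf U := by rw [hj]; trivial
    exact hqA (Subgroup.mem_subgroupOf.mp this)
  have hj1 : j ≠ 1 := by
    rintro rfl
    rw [pow_one] at hj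
    have hq'U : g * q * g⁻¹ ∈ U := hUn.conj_mem q hqU g
    have hq'A : g * q * g⁻¹ ∉ A := by
      intro h
      have h4 := ((hmemA _).mp h).2
      apply hqg
      have h5 : g * q = q * g := by
        have := congrArg (fun z => g⁻¹ * z * g) h4
        simpa [mul_assoc] using this
      exact h5.symm
    have hqinv : q⁻¹ ∉ A := fun h => hqA (by simpa using A.inv_mem h)
    have h4 := (Subgroup.mul_mem_iff_of_index_two hj
      (a := (⟨q⁻¹, U.inv_mem hqU⟩ : ↥U)) (b := (⟨g * q * g⁻¹, hq'U⟩ : ↥U))).mpr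
      ⟨fun h => absurd (Subgroup.mem_subgroupOf.mp h) hqinv,
        fun h => absurd (Subgroup.mem_subgroupOf.mp h) hq'A⟩
    have h5 : q⁻¹ * (g * q * g⁻¹) ∈ A := Subgroup.mem_subgroupOf.mp h4
    set c : G := q⁻¹ * (g * q * g⁻¹) with hc
    have hcU : c ∈ U := ((hmemA c).mp h5).1
    have hcg : g * c = c * g := ((hmemA c).mp h5).2
    have hgq : g * q * g⁻¹ = q * c := by rw [hc]; group
    have hpow : ∀ n : ℕ, g ^ n * q * (g ^ n)⁻¹ = q * c ^ n := by
      intro n
      induction n with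
      | zero => simp
      | succ n ih =>
        have hcn : g * c ^ n * g⁻¹ = c ^ n := by
          have : g * c ^ n = c ^ n * g := ((Commute.pow_right (show Commute g c from hcg) n)).eq
          rw [this]; group
        calc g ^ (n + 1) * q * (g ^ (n + 1))⁻¹
            = g * (g ^ n * q * (g ^ n)⁻¹) * g⁻¹ := by rw [pow_succ']; group
          _ = g * (q * c ^ n) * g⁻¹ := by rw [ih]
          _ = (g * q * g⁻¹) * (g * c ^ n * g⁻¹) := by group
          _ = q * c * c ^ n := by rw [hgq, hcn]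
          _ = q * c ^ (n + 1) := by rw [pow_succ']; group
    have h6 := hpow (orderOf g)
    rw [pow_orderOf_eq_one, one_mul, inv_one, mul_one] at h6
    have h7 : c ^ orderOf g = 1 := by
      have := congrArg (fun z => q⁻¹ * z) h6
      simpa using this.symm
    have h8 : (orderOf c).Coprime 2 :=
      Nat.Coprime.coprime_dvd_left (orderOf_dvd_of_pow_eq_one h7) hg
    have h9 : c = 1 := eq_one_of_mem_pgroup_of_coprime hU hcU h8
    apply hqg
    rw [h9, mul_one] at hgq
    have := congrArg (fun z => z * g) hgq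
    simpa using this.symm
  have hj2 : 2 ≤ j := by omega
  obtain ⟨i, rfl⟩ : ∃ i, j = i + 2 := ⟨j - 2, by omega⟩
  rw [h2, hj] at h1
  rw [← h1, pow_add]
  have : 1 ≤ 2 ^ i := Nat.one_le_two_pow
  nlinarith

/-- Final count: a self-centralizing normal `2`-subgroup on which an element of odd order acts
nontrivially forces `2 * k₂(G) ≤ |P|`. -/
theorem two_card_le_of_selfCentralizing {G : Type u} [Group G] [Finite G] (P : Sylow 2 G)
    (U : Subgroup G) [hUn : U.Normal] (hUP : U ≤ (P : Subgroup G))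
    (hCU : Subgroup.centralizer (U : Set G) ≤ U) (g : G) (hg : (orderOf g).Coprime 2)
    (hgU : g ∉ Subgroup.centralizer (U : Set G)) :
    2 * Nat.card (PClass 2 G) ≤ Nat.card ↥(P : Subgroup G) := by
  have : Fact (Nat.Prime 2) := ⟨Nat.prime_two⟩
  have hU : IsPGroup 2 U := P.isPGroup'.to_le hUP
  have h4 := four_card_fixed_le U hU g hg hgU
  set A : Subgroup G := U ⊓ Subgroup.centralizer ({g} : Set G) with hA
  have hAU : A ≤ U := inf_le_left
  have hmemA : ∀ z : G, z ∈ A ↔ z ∈ U ∧ g * z = z * g := by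
    intro z
    rw [hA, Subgroup.mem_inf, Subgroup.mem_centralizer_iff]
    constructor
    · rintro ⟨h1, h2⟩; exact ⟨h1, h2 g rfl⟩
    · rintro ⟨h1, h2⟩
      refine ⟨h1, ?_⟩
      intro h hh
      rw [Set.mem_singleton_iff] at hh
      rw [hh]; exact h2
  have hconjU : ∀ x y : G, ConjClasses.mk x = ConjClasses.mk y → x ∈ U → y ∈ U := by
    intro x y hxy hx
    rw [ConjClasses.mk_eq_mk_iff_isConj, isConj_iff] at hxy
    obtain ⟨w, rfl⟩ := hxy
    exact hUn.conj_mem x hx w
  set S₁ : Set (PClass 2 G) := {c | ∀ x : G, ConjClasses.mk x = c.1 → x ∉ U} with hS₁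
  set S₂ : Set (PClass 2 G) := {c | ∃ x ∈ U, x ∉ A ∧ ConjClasses.mk x = c.1} with hS₂
  set S₃ : Set (PClass 2 G) := {c | ∃ x ∈ A, ConjClasses.mk x = c.1} with hS₃
  have hcover : (Set.univ : Set (PClass 2 G)) ⊆ S₁ ∪ (S₂ ∪ S₃) := by
    intro c _
    by_cases h1 : c ∈ S₁
    · exact Or.inl h1
    · right
      have h1' : ¬ ∀ x : G, ConjClasses.mk x = c.1 → x ∉ U := h1
      push Not at h1'
      obtain ⟨x, hxc, hxU⟩ := h1'
      by_cases hxA : x ∈ A
      · exact Or.inr ⟨x, hxA, hxc⟩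
      · exact Or.inl ⟨x, hxU, hxA, hxc⟩
  have hk : Nat.card (PClass 2 G) ≤ S₁.ncard + (S₂.ncard + S₃.ncard) := by
    rw [← Set.ncard_univ]
    calc (Set.univ : Set (PClass 2 G)).ncard ≤ (S₁ ∪ (S₂ ∪ S₃)).ncard := Set.ncard_le_ncard hcover
      _ ≤ S₁.ncard + (S₂ ∪ S₃).ncard := Set.ncard_union_le _ _
      _ ≤ S₁.ncard + (S₂.ncard + S₃.ncard) := Nat.add_le_add_left (Set.ncard_union_le _ _) _
  -- classes inside `A`
  have h3 : 1 * S₃.ncard ≤ (A : Set G).ncard := by
    apply fiber_count 2 1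
    rintro c ⟨x, hxA, hxc⟩
    exact ⟨fun _ => x, fun i j _ => Subsingleton.elim i j, fun _ => ⟨hxA, hxc⟩⟩
  -- classes inside `U` not inside `A`
  have h2 : 3 * S₂.ncard ≤ ((U : Set G) \ (A : Set G)).ncard := by
    apply fiber_count 2 3
    rintro c ⟨x, hxU, hxA, hxc⟩
    have hxg : g * x ≠ x * g := fun h => hxA ((hmemA x).mpr ⟨hxU, h⟩)
    have hx1U : g * x * g⁻¹ ∈ U := hUn.conj_mem x hxU g
    have hx2U : g * (g * x * g⁻¹) * g⁻¹ ∈ U := hUn.conj_mem _ hx1U g
    have hx1A : g * x * g⁻¹ ∉ A := by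
      intro h
      apply hxg
      have := congrArg (fun z => g⁻¹ * z * g) ((hmemA _).mp h).2
      simpa [mul_assoc] using this
    have hx2A : g * (g * x * g⁻¹) * g⁻¹ ∉ A := by
      intro h
      apply hx1A
      rw [hmemA]
      refine ⟨hx1U, ?_⟩
      have := congrArg (fun z => g⁻¹ * z * g) ((hmemA _).mp h).2
      simpa [mul_assoc] using this
    have hx1c : ConjClasses.mk (g * x * g⁻¹) = c.1 := by
      rw [← hxc, ConjClasses.mk_eq_mk_iff_isConj, isConj_comm, isConj_iff]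
      exact ⟨g, rfl⟩
    have hx2c : ConjClasses.mk (g * (g * x * g⁻¹) * g⁻¹) = c.1 := by
      rw [← hx1c, ConjClasses.mk_eq_mk_iff_isConj, isConj_comm, isConj_iff]
      exact ⟨g, rfl⟩
    have h01 : x ≠ g * x * g⁻¹ := by
      intro h
      apply hxg
      have := congrArg (fun z => z * g) h
      simpa using this.symm
    have h12 : g * x * g⁻¹ ≠ g * (g * x * g⁻¹) * g⁻¹ := by
      intro h
      apply h01
      have := congrArg (fun z => g⁻¹ * z * g) h
      simpa [mul_assoc] using this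
    have h02 : x ≠ g * (g * x * g⁻¹) * g⁻¹ := by
      intro h
      apply hxg
      -- `g ^ 2` commutes with `x`, and `g` is a power of `g ^ 2`
      have hc2 : Commute (g ^ 2) x := by
        have h' : g ^ 2 * x = x * g ^ 2 := by
          calc g ^ 2 * x = (g * (g * x * g⁻¹) * g⁻¹) * g ^ 2 := by rw [pow_two]; group
            _ = x * g ^ 2 := by rw [← h]
        exact h'
      have hodd : Odd (orderOf g) := Nat.coprime_two_right.mp hg
      obtain ⟨m, hm⟩ := hodd
      have hgp : (g ^ 2) ^ (m + 1) = g := by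
        rw [← pow_mul, show 2 * (m + 1) = orderOf g + 1 by omega, pow_succ, pow_orderOf_eq_one,
          one_mul]
      have := (hc2.pow_left (m + 1)).eq
      rw [hgp] at this
      exact this
    refine ⟨![x, g * x * g⁻¹, g * (g * x * g⁻¹) * g⁻¹], ?_, ?_⟩
    · intro i j hij
      fin_cases i <;> fin_cases j
      · rfl
      · exact absurd hij h01
      · exact absurd hij h02
      · exact absurd hij.symm h01
      · rfl
      · exact absurd hij h12
      · exact absurd hij.symm h02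
      · exact absurd hij.symm h12
      · rfl
    · intro i
      fin_cases i
      · exact ⟨⟨hxU, hxA⟩, hxc⟩
      · exact ⟨⟨hx1U, hx1A⟩, hx1c⟩
      · exact ⟨⟨hx2U, hx2A⟩, hx2c⟩
  -- classes outside `U`
  have h1 : 2 * S₁.ncard ≤ (((P : Subgroup G) : Set G) \ (U : Set G)).ncard := by
    apply fiber_count 2 2
    intro c hc
    obtain ⟨x, hxP, hxc⟩ := pClass_exists_rep P c
    have hxU : x ∉ U := hc x hxc
    have hxC : x ∉ Subgroup.centralizer (U : Set G) := fun h => hxU (hCU h)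
    obtain ⟨u, huU, hux⟩ : ∃ u ∈ U, u * x ≠ x * u := by
      by_contra hcon
      push Not at hcon
      exact hxC (Subgroup.mem_centralizer_iff.mpr hcon)
    have huc : ConjClasses.mk (u * x * u⁻¹) = c.1 := by
      rw [← hxc, ConjClasses.mk_eq_mk_iff_isConj, isConj_comm, isConj_iff]
      exact ⟨u, rfl⟩
    have hne : x ≠ u * x * u⁻¹ := by
      intro h
      apply hux
      have := congrArg (fun z => z * u) h
      simpa using this.symm
    refine ⟨![x, u * x * u⁻¹], ?_, ?_⟩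
    · intro i j hij
      fin_cases i <;> fin_cases j
      · rfl
      · exact absurd hij hne
      · exact absurd hij.symm hne
      · rfl
    · intro i
      fin_cases i
      · exact ⟨⟨hxP, hxU⟩, hxc⟩
      · exact ⟨⟨Subgroup.mul_mem _ (Subgroup.mul_mem _ (hUP huU) hxP)
          (Subgroup.inv_mem _ (hUP huU)), hc _ huc⟩, huc⟩
  rw [Set.ncard_sdiff (by exact hUP)] at h1
  rw [Set.ncard_sdiff (by exact hAU)] at h2
  have e1 : ((P : Subgroup G) : Set G).ncard = Nat.card ↥(P : Subgroup G) := rfl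
  have e2 : (U : Set G).ncard = Nat.card ↥U := rfl
  have e3 : (A : Set G).ncard = Nat.card ↥A := rfl
  have e4 : (A : Set G).ncard ≤ (U : Set G).ncard := Set.ncard_le_ncard (by exact hAU)
  have e5 : (U : Set G).ncard ≤ ((P : Subgroup G) : Set G).ncard := Set.ncard_le_ncard (by exact hUP)
  omega

/-- Main inequality, by induction on the order: a group without a normal `2`-complement has at
most `|P| / 2` classes of `2`-elements. -/
theorem two_card_le_aux (n : ℕ) : ∀ (G : Type u) [Group G] [Finite G], Nat.card G = n →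
    ¬ Cfsg.HasNormalPComplement 2 G → ∀ P : Sylow 2 G,
    2 * Nat.card (PClass 2 G) ≤ Nat.card ↥(P : Subgroup G) := by
  induction n using Nat.strong_induction_on with
  | _ n ih =>
  intro G _ _ hn hG P
  have : Fact (Nat.Prime 2) := ⟨Nat.prime_two⟩
  by_contra hgoal
  -- reduction: normalizers of `2`-subgroups that fail the Frobenius condition are everything
  have hR : ∀ Q : Subgroup G, IsPGroup 2 Q → ¬ IFC 2 (Subgroup.normalizer (Q : Set G)) →
      Subgroup.normalizer (Q : Set G) = ⊤ := by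
    intro Q hQ hIFC
    by_contra hne
    apply hgoal
    set M := Subgroup.normalizer (Q : Set G) with hM
    have hMG : ¬ Cfsg.HasNormalPComplement 2 ↥M := fun h => hIFC ((ifc_iff_hnpc M).mpr h)
    have hlt : Nat.card ↥M < n := by
      rw [← hn]
      exact lt_of_le_of_ne (Subgroup.card_le_card_group M)
        (fun h => hne ((Subgroup.card_eq_iff_eq_top M).mp h))
    let R : Sylow 2 ↥M := default
    have hIH := ih _ hlt ↥M rfl hMG R
    obtain ⟨P₁, hP₁⟩ := Sylow.exists_comap_subtype_eq R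
    have hR' : (R : Subgroup ↥M) = (P₁ : Subgroup G).subgroupOf M := by
      rw [← hP₁]; rfl
    have hcard : Nat.card ↥(R : Subgroup ↥M) = Nat.card ↥((P₁ : Subgroup G) ⊓ M) := by
      rw [hR', ← Subgroup.inf_subgroupOf_right]
      exact Nat.card_congr
        (Subgroup.subgroupOfEquivOfLe (inf_le_right : (P₁ : Subgroup G) ⊓ M ≤ M)).toEquiv
    have hQP₁ : Q ≤ (P₁ : Subgroup G) := by
      have hQn : (Q.subgroupOf M).Normal := Subgroup.normal_in_normalizer
      have hQp : IsPGroup 2 (Q.subgroupOf M) := hQ.comap_subtype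
      have hle := hQp.le_sylow_of_normal R
      intro q hq
      have hqM : q ∈ M := Subgroup.le_normalizer hq
      have h1 : (⟨q, hqM⟩ : ↥M) ∈ (R : Subgroup ↥M) := hle (Subgroup.mem_subgroupOf.mpr hq)
      rw [hR'] at h1
      exact Subgroup.mem_subgroupOf.mp h1
    have hZ : ∀ x ∈ (P₁ : Subgroup G), x ∉ M → ∃ u ∈ (P₁ : Subgroup G), u * x * u⁻¹ ≠ x := by
      intro x hxP hxM
      by_contra hcon
      push Not at hcon
      apply hxM
      apply Subgroup.centralizer_le_normalizer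
      rw [Subgroup.mem_centralizer_iff]
      intro q hq
      have h1 := hcon q (hQP₁ hq)
      have := congrArg (fun z => z * q) h1
      simpa using this
    have key := two_card_le_of_subgroup P₁ M hZ (by rw [← hcard]; exact hIH)
    have hPP : Nat.card ↥(P₁ : Subgroup G) = Nat.card ↥(P : Subgroup G) := by
      rw [Sylow.card_eq_multiplicity, Sylow.card_eq_multiplicity]
    rw [← hPP]; exact key
  -- a Frobenius pair
  have hIFC : ¬ IFC 2 (⊤ : Subgroup G) := fun h => hG (ifc_top_iff.mp h)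
  unfold IFC at hIFC
  push Not at hIFC
  obtain ⟨Q₀, -, hQ₀, g₀, -, hg₀N, hg₀o, hg₀C⟩ := hIFC
  have hN₀ : ¬ IFC 2 (Subgroup.normalizer (Q₀ : Set G)) :=
    fun h => hg₀C (h Q₀ Subgroup.le_normalizer hQ₀ g₀ hg₀N hg₀N hg₀o)
  have hQ₀n : Q₀.Normal := Subgroup.normalizer_eq_top_iff.mp (hR Q₀ hQ₀ hN₀)
  set U : Subgroup G := (P : Subgroup G).normalCore with hU
  have hUP : U ≤ (P : Subgroup G) := Subgroup.normalCore_le _
  have hUp : IsPGroup 2 U := P.isPGroup'.to_le hUP
  have hQ₀U : Q₀ ≤ U := Subgroup.normal_le_normalCore.mpr (hQ₀.le_sylow_of_normal P)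
  have hg₀U : g₀ ∉ Subgroup.centralizer (U : Set G) :=
    fun h => hg₀C (Subgroup.centralizer_le (by exact hQ₀U) h)
  -- the centralizer of `U` satisfies the Frobenius condition
  set C : Subgroup G := Subgroup.centralizer (U : Set G) with hC
  have hCn : C.Normal := Subgroup.normal_centralizer
  have hCI : IFC 2 C := by
    intro Q₁ hQ₁C hQ₁ g₁ hg₁C hg₁N hg₁o
    by_contra hg₁
    have hQ₂ : IsPGroup 2 (Q₁ ⊔ U : Subgroup G) := IsPGroup.to_sup_of_normal_right hQ₁ hUp
    have hg₁N₂ : g₁ ∈ Subgroup.normalizer ((Q₁ ⊔ U : Subgroup G) : Set G) := by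
      have h1 : Q₁ ≤ (Subgroup.normalizer ((Q₁ ⊔ U : Subgroup G) : Set G)) :=
        le_sup_left.trans Subgroup.le_normalizer
      rw [Subgroup.mem_normalizer_iff]
      have hfwd : ∀ w : G, w ∈ Subgroup.normalizer (Q₁ : Set G) → ∀ h ∈ (Q₁ ⊔ U : Subgroup G),
          w * h * w⁻¹ ∈ (Q₁ ⊔ U : Subgroup G) := by
        intro w hw h hh
        obtain ⟨a, ha, b, hb, rfl⟩ := Subgroup.mem_sup_of_normal_right.mp hh
        have h2 : w * (a * b) * w⁻¹ = (w * a * w⁻¹) * (w * b * w⁻¹) := by group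
        rw [h2]
        exact Subgroup.mul_mem _
          (le_sup_left (b := U) ((Subgroup.mem_normalizer_iff.mp hw a).mp ha))
          (le_sup_right (a := Q₁) (Subgroup.Normal.conj_mem inferInstance b hb w))
      intro h
      constructor
      · exact hfwd g₁ hg₁N h
      · intro hh
        have := hfwd g₁⁻¹ (Subgroup.inv_mem _ hg₁N) _ hh
        have e : g₁⁻¹ * (g₁ * h * g₁⁻¹) * g₁⁻¹⁻¹ = h := by group
        rw [e] at this
        exact this
    have hN₂ : ¬ IFC 2 (Subgroup.normalizer ((Q₁ ⊔ U : Subgroup G) : Set G)) :=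
      fun h => hg₁ (Subgroup.centralizer_le (by exact (le_sup_left : Q₁ ≤ Q₁ ⊔ U))
        (h (Q₁ ⊔ U) Subgroup.le_normalizer hQ₂ g₁ hg₁N₂ hg₁N₂ hg₁o))
    have hQ₂n : (Q₁ ⊔ U : Subgroup G).Normal :=
      Subgroup.normalizer_eq_top_iff.mp (hR (Q₁ ⊔ U) hQ₂ hN₂)
    have hQ₂U : Q₁ ⊔ U ≤ U := Subgroup.normal_le_normalCore.mpr (hQ₂.le_sylow_of_normal P)
    have hQ₁U : Q₁ ≤ U := le_sup_left.trans hQ₂U
    exact hg₁ (Subgroup.centralizer_le (by exact hQ₁U) hg₁C)
  obtain ⟨D, hDn, hDC, hDo, hDall⟩ := exists_normal_pPrime_of_ifc C hCI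
  by_cases hD : D = ⊥
  · have hCp : IsPGroup 2 C := isPGroup_subgroup_of_forall_coprime_eq_one C (fun x hx hxo => by
      have h1 := hDall x hx hxo
      rw [hD] at h1
      exact Subgroup.mem_bot.mp h1)
    have hCU : C ≤ U := Subgroup.normal_le_normalCore.mpr (hCp.le_sylow_of_normal P)
    exact hgoal (two_card_le_of_selfCentralizing P U hUP hCU g₀ hg₀o hg₀U)
  · have hGD : ¬ Cfsg.HasNormalPComplement 2 (G ⧸ D) :=
      fun h => hG (hnpc_of_quotient_coprime D hDo h)
    have hlt : Nat.card (G ⧸ D) < n := by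
      rw [← hn, Subgroup.card_eq_card_quotient_mul_card_subgroup D]
      have h1 : 1 < Nat.card D := (Subgroup.one_lt_card_iff_ne_bot D).mpr hD
      have h2 : 0 < Nat.card (G ⧸ D) := Nat.card_pos
      nlinarith
    let P' : Sylow 2 (G ⧸ D) := default
    have hIH := ih _ hlt (G ⧸ D) rfl hGD P'
    have h1 := card_pClass_le_quotient 2 D hDo
    have h2 := card_sylow_quotient 2 D hDo P P'
    apply hgoal
    omega

/-- A group without a normal `2`-complement has at most `|P| / 2` classes of `2`-elements. -/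
theorem two_card_pClass_le {G : Type u} [Group G] [Finite G] (hG : ¬ Cfsg.HasNormalPComplement 2 G)
    (P : Sylow 2 G) : 2 * Nat.card (PClass 2 G) ≤ Nat.card ↥(P : Subgroup G) :=
  two_card_le_aux _ G rfl hG P

end Cfsg.Agent.Lib.Helper65
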