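import Mathlib
import Cfsg.Agent.Lib.Helper65.TwoClasses
import Cfsg.Agent.Lib.Helper65.PiClasses

/-!
# Classes of `π`-elements when `2 ∈ π`
-/

set_option autoImplicit false

namespace Cfsg.Agent.Lib.Helper65

open MulAction

universe u

/-- General orbit bound: if the centralizer of the normal `p`-subgroup `Q` has index at least `k`
then `Q` has at most `(p + k - 1)|Q|/(kp)` orbits under conjugation by `H`. -/
theorem orbit_bound_gen {H : Type*} [Group H] [Finite H] {p : ℕ} [Fact p.Prime] (Q : Subgroup H)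
    [Q.Normal] (hQ : IsPGroup p Q) (k : ℕ)
    (hk : k * Nat.card (Subgroup.centralizer (Q : Set H)) ≤ Nat.card H) :
    k * p * Nat.card (orbitRel.Quotient (ConjAct H) Q) ≤ (p + k - 1) * Nat.card Q := by
  classical
  have hp : p.Prime := Fact.out
  have : Fintype H := Fintype.ofFinite H
  have : Fintype (orbitRel.Quotient (ConjAct H) Q) := Fintype.ofFinite _
  have hB := sum_card_fixedBy_eq_card_orbits_mul_card_group (ConjAct H) Q
  set C : Subgroup H := Subgroup.centralizer (Q : Set H) with hC
  obtain ⟨n, hn⟩ := IsPGroup.iff_card.1 hQ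
  obtain ⟨m, hm⟩ : ∃ m, p = m + 1 := ⟨p - 1, by have := hp.pos; omega⟩
  have hfix : ∀ g : ConjAct H, p * Fintype.card (fixedBy Q g) ≤
      Nat.card Q + if ConjAct.ofConjAct g ∈ C then m * Nat.card Q else 0 := by
    intro g
    let K : Subgroup Q := (Subgroup.centralizer {ConjAct.ofConjAct g}).subgroupOf Q
    have hmemK : ∀ x : Q, x ∈ K ↔ (x : H) * ConjAct.ofConjAct g = ConjAct.ofConjAct g * (x : H) := by
      intro x
      simp only [K, Subgroup.mem_subgroupOf, Subgroup.mem_centralizer_iff, Set.mem_singleton_iff,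
        forall_eq]
      exact eq_comm
    have hset : fixedBy Q g = (K : Set Q) := by
      ext x
      rw [mem_fixedBy, SetLike.mem_coe, hmemK, Subtype.ext_iff, ConjAct.Subgroup.val_conj_smul,
        ConjAct.smul_def]
      constructor
      · intro h
        have := congrArg (· * ConjAct.ofConjAct g) h
        simp only [inv_mul_cancel_right] at this
        exact this.symm
      · intro h
        rw [← h, mul_inv_cancel_right]
    have hcard : Fintype.card (fixedBy Q g) = Nat.card K := by
      rw [← Nat.card_eq_fintype_card]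
      exact Nat.card_congr (Equiv.setCongr hset)
    rw [hcard]
    split_ifs with hg
    · have h1 : Nat.card K ≤ Nat.card Q := Subgroup.card_le_card_group K
      calc p * Nat.card K ≤ p * Nat.card Q := Nat.mul_le_mul_left _ h1
        _ = Nat.card Q + m * Nat.card Q := by rw [hm]; ring
    · have hK : K ≠ ⊤ := by
        intro htop
        apply hg
        rw [hC, Subgroup.mem_centralizer_iff]
        intro x hx
        have : (⟨x, hx⟩ : Q) ∈ K := htop ▸ Subgroup.mem_top _
        exact (hmemK ⟨x, hx⟩).1 this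
      have hdvd : Nat.card K ∣ p ^ n := hn ▸ Subgroup.card_subgroup_dvd_card K
      obtain ⟨j, hj, hKj⟩ := (Nat.dvd_prime_pow hp).1 hdvd
      have hjn : j < n := by
        rcases hj.lt_or_eq with h | h
        · exact h
        · exfalso
          apply hK
          apply Subgroup.eq_top_of_card_eq
          rw [hKj, h, hn]
      rw [hKj, hn, add_zero, ← pow_succ']
      exact Nat.pow_le_pow_right hp.pos hjn
  have hcardC : (Finset.univ.filter (fun g : ConjAct H => ConjAct.ofConjAct g ∈ C)).card =
      Nat.card C := by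
    rw [← Fintype.card_subtype, ← Nat.card_eq_fintype_card]
    exact Nat.card_congr (ConjAct.ofConjAct.toEquiv.subtypeEquiv (fun g => Iff.rfl))
  have hsum : ∑ g : ConjAct H, (Nat.card Q + if ConjAct.ofConjAct g ∈ C then m * Nat.card Q else 0)
      = Nat.card H * Nat.card Q + Nat.card C * (m * Nat.card Q) := by
    rw [Finset.sum_add_distrib, Finset.sum_const, Finset.card_univ, ← Finset.sum_filter,
      Finset.sum_const, hcardC, smul_eq_mul, smul_eq_mul, ConjAct.card]
    simp only [Nat.card_eq_fintype_card]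
  have hle : p * (Fintype.card (orbitRel.Quotient (ConjAct H) Q) * Fintype.card (ConjAct H)) ≤
      Nat.card H * Nat.card Q + Nat.card C * (m * Nat.card Q) := by
    rw [← hB, Finset.mul_sum, ← hsum]
    exact Finset.sum_le_sum (fun g _ => hfix g)
  rw [ConjAct.card, ← Nat.card_eq_fintype_card, ← Nat.card_eq_fintype_card] at hle
  have hHpos : 0 < Nat.card H := Nat.card_pos
  apply Nat.le_of_mul_le_mul_right _ hHpos
  have h3 : k * (Nat.card C * (m * Nat.card Q)) ≤ Nat.card H * (m * Nat.card Q) := by
    calc k * (Nat.card C * (m * Nat.card Q)) = (k * Nat.card C) * (m * Nat.card Q) := by ring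
      _ ≤ Nat.card H * (m * Nat.card Q) := Nat.mul_le_mul_right _ hk
  have hpk : p + k - 1 = m + k := by omega
  calc k * p * Nat.card (orbitRel.Quotient (ConjAct H) Q) * Nat.card H
      = k * (p * (Nat.card (orbitRel.Quotient (ConjAct H) Q) * Nat.card H)) := by ring
    _ ≤ k * (Nat.card H * Nat.card Q + Nat.card C * (m * Nat.card Q)) := Nat.mul_le_mul_left _ hle
    _ = k * (Nat.card H * Nat.card Q) + k * (Nat.card C * (m * Nat.card Q)) := by ring
    _ ≤ k * (Nat.card H * Nat.card Q) + Nat.card H * (m * Nat.card Q) := Nat.add_le_add_left h3 _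
    _ = (p + k - 1) * Nat.card Q * Nat.card H := by rw [hpk]; ring

/-- In a group of odd order, if more than half of `|P|` classes of `p`-elements exist (`p` odd),
then `N(P) ≤ C(P)`. -/
theorem normalizer_le_centralizer_of_odd {K : Type*} [Group K] [Finite K]
    (hodd : Odd (Nat.card K)) {p : ℕ} [Fact p.Prime] (hp2 : p ≠ 2) (P : Sylow p K)
    (hlt : Nat.card ↥(P : Subgroup K) < 2 * Nat.card (PClass p K)) :
    Subgroup.normalizer ((P : Subgroup K) : Set K) ≤
      Subgroup.centralizer ((P : Subgroup K) : Set K) := by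
  have hp : p.Prime := Fact.out
  by_contra hcon
  let N : Subgroup K := Subgroup.normalizer ((P : Subgroup K) : Set K)
  let Q : Subgroup N := (P : Subgroup K).subgroupOf N
  have hPN : (P : Subgroup K) ≤ N := Subgroup.le_normalizer
  have hQn : Q.Normal := Subgroup.normal_in_normalizer
  have hQP : Nat.card Q = Nat.card (P : Subgroup K) :=
    Nat.card_congr (Subgroup.subgroupOfEquivOfLe hPN).toEquiv
  have hQ : IsPGroup p Q := P.isPGroup'.comap_of_injective N.subtype N.subtype_injective
  set C : Subgroup N := Subgroup.centralizer (Q : Set N) with hC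
  have hCn : C.Normal := Subgroup.normal_centralizer
  have hCtop : C ≠ ⊤ := by
    intro htop
    apply hcon
    intro g hg
    rw [Subgroup.mem_centralizer_iff]
    intro x hx
    have h1 : (⟨x, hPN hx⟩ : N) ∈ Q := Subgroup.mem_subgroupOf.2 hx
    have h2 : (⟨g, hg⟩ : N) ∈ C := htop ▸ Subgroup.mem_top _
    have h3 := Subgroup.mem_centralizer_iff.1 h2 _ h1
    exact congrArg Subtype.val h3
  have hidx1 : C.index ≠ 1 := fun h => hCtop (Subgroup.index_eq_one.1 h)
  have hidxodd : Odd C.index := by
    have h1 : C.index ∣ Nat.card N := Subgroup.index_dvd_card C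
    have h2 : Nat.card N ∣ Nat.card K := Subgroup.card_subgroup_dvd_card N
    exact Odd.of_dvd_nat hodd (h1.trans h2)
  have hidxp : C.index ≠ p := by
    intro hip
    have hQC : Q ≤ C := by
      by_contra hQC
      obtain ⟨x, hxQ, hxC⟩ := SetLike.not_le_iff_exists.1 hQC
      have hcard : Nat.card (N ⧸ C) = p := hip
      have hx1 : (QuotientGroup.mk x : N ⧸ C) ≠ 1 := fun h => hxC ((QuotientGroup.eq_one_iff x).1 h)
      have htop := zpowers_eq_top_of_prime_card hcard hx1
      apply hxC
      rw [hC, Subgroup.mem_centralizer_iff]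
      intro y hy
      have hy1 : (QuotientGroup.mk y : N ⧸ C) ∈ Subgroup.zpowers (QuotientGroup.mk x : N ⧸ C) := by
        rw [htop]; trivial
      obtain ⟨j, hj⟩ := Subgroup.mem_zpowers_iff.1 hy1
      have h1 : (QuotientGroup.mk (x ^ j) : N ⧸ C) = QuotientGroup.mk y := by
        rw [QuotientGroup.mk_zpow]; exact hj
      have h2 : (x ^ j)⁻¹ * y ∈ C := QuotientGroup.eq.1 h1
      have h3 := Subgroup.mem_centralizer_iff.1 h2 x hxQ
      -- x * ((x^j)⁻¹ * y) = ((x^j)⁻¹ * y) * x
      have h4 : Commute x (x ^ j) := (Commute.refl x).zpow_right j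
      have h5 : x * (x ^ j)⁻¹ = (x ^ j)⁻¹ * x := h4.inv_right.eq
      calc y * x = x ^ j * (((x ^ j)⁻¹ * y) * x) := by group
        _ = x ^ j * (x * ((x ^ j)⁻¹ * y)) := by rw [h3]
        _ = x ^ j * (x * (x ^ j)⁻¹) * y := by group
        _ = x ^ j * ((x ^ j)⁻¹ * x) * y := by rw [h5]
        _ = x * y := by group
    have h1 : C.index ∣ Q.index := Subgroup.index_dvd_of_le hQC
    have h2 : Q.index = (P : Subgroup K).relIndex N := rfl
    have h3 : (P : Subgroup K).relIndex N * N.index = (P : Subgroup K).index :=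
      Subgroup.relIndex_mul_index hPN
    have h4 : p ∣ (P : Subgroup K).index := by
      rw [← h3, ← h2]
      exact Dvd.dvd.mul_right (hip ▸ h1) _
    exact P.not_dvd_index h4
  have hbound := orbit_bound_gen Q hQ C.index (le_of_eq (by rw [mul_comm]; exact Subgroup.card_mul_index C))
  let f0 : Q → PClass p K := fun x =>
    ⟨ConjClasses.mk ((x : N) : K),
      pClass_mk_prop _ (orderOf_eq_pow_of_mem_sylow P (Subgroup.mem_subgroupOf.1 x.2))⟩
  have hf0 : ∀ a b : Q, (orbitRel (ConjAct N) Q) a b → f0 a = f0 b := by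
    intro a b hab
    obtain ⟨g, hg⟩ := hab
    apply Subtype.ext
    show ConjClasses.mk ((a : N) : K) = ConjClasses.mk ((b : N) : K)
    rw [ConjClasses.mk_eq_mk_iff_isConj, isConj_comm, isConj_iff]
    refine ⟨((ConjAct.ofConjAct g : N) : K), ?_⟩
    have h1 : ((g • b : Q) : N) = a := congrArg Subtype.val hg
    rw [ConjAct.Subgroup.val_conj_smul, ConjAct.smul_def] at h1
    have h2 := congrArg Subtype.val h1
    simpa using h2
  let f : orbitRel.Quotient (ConjAct N) Q → PClass p K := Quotient.lift f0 hf0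
  have hf : Function.Surjective f := by
    intro c
    obtain ⟨x, hx, hxc⟩ := pClass_exists_rep P c
    refine ⟨Quotient.mk'' ⟨⟨x, hPN hx⟩, Subgroup.mem_subgroupOf.2 hx⟩, ?_⟩
    apply Subtype.ext
    exact hxc
  have hle : Nat.card (PClass p K) ≤ Nat.card (orbitRel.Quotient (ConjAct N) Q) :=
    Nat.card_le_card_of_surjective f hf
  rw [hQP] at hbound
  have hp3 : 3 ≤ p := by
    have := hp.two_le
    omega
  have hi3 : 3 ≤ C.index := by
    obtain ⟨j, hj⟩ := hidxodd
    have : C.index ≠ 0 := Subgroup.index_ne_zero_of_finite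
    omega
  have hpodd : Odd p := hp.odd_of_ne_two hp2
  have hcase : 5 ≤ p ∨ 5 ≤ C.index := by
    obtain ⟨j, hj⟩ := hidxodd
    obtain ⟨l, hl⟩ := hpodd
    omega
  have hPpos : 0 < Nat.card ↥(P : Subgroup K) := Nat.card_pos
  set i := C.index with hi
  set o := Nat.card (orbitRel.Quotient (ConjAct N) Q) with ho
  set c := Nat.card (PClass p K) with hc
  set q := Nat.card ↥(P : Subgroup K) with hq
  -- i * p * o ≤ (p + i - 1) * q,  q < 2 * c, c ≤ o
  have h1 : i * p * q < 2 * (i * p * o) := by
    have : q < 2 * o := by omega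
    have hip : 0 < i * p := by positivity
    nlinarith
  have h2 : i * p * q < 2 * ((p + i - 1) * q) := by omega
  have h3 : i * p < 2 * (p + i - 1) := by
    have : i * p * q < 2 * (p + i - 1) * q := by rw [mul_assoc 2]; exact h2
    exact Nat.lt_of_mul_lt_mul_right this
  have h4 : p + i - 1 + 1 = p + i := by omega
  rcases hcase with h5 | h5
  · nlinarith
  · nlinarith

open scoped commutatorElement in
/-- In a group of odd order with many classes of `q`-elements there is a normal `q`-complement
containing the commutator subgroup. -/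
theorem exists_normal_q_complement_of_odd {K : Type*} [Group K] [Finite K]
    (hodd : Odd (Nat.card K)) (q : ℕ) [Fact q.Prime] (hq2 : q ≠ 2)
    (h4 : q ^ (Nat.card K).factorization q < 2 * Nat.card (PClass q K)) :
    ∃ N : Subgroup K, N.Normal ∧ ¬ q ∣ Nat.card N ∧
      (∀ s : ℕ, s.Prime → s ∣ N.index → s = q) ∧ commutator K ≤ N := by
  have hqp : q.Prime := Fact.out
  let P : Sylow q K := default
  have hNC := normalizer_le_centralizer_of_odd hodd hq2 P
    (by rw [Sylow.card_eq_multiplicity P]; exact h4)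
  have hcomp := MonoidHom.ker_transferSylow_isComplement' P hNC
  have hab : IsMulCommutative ↥(P : Subgroup K) :=
    ⟨⟨fun a b => Subtype.ext (hNC (Subgroup.le_normalizer b.2) a a.2)⟩⟩
  set N : Subgroup K := (MonoidHom.transferSylow P hNC).ker with hN
  have hNn : N.Normal := inferInstance
  refine ⟨N, hNn, ?_, ?_, ?_⟩
  · rw [← hcomp.index_eq_card]
    exact P.not_dvd_index
  · intro s hs hdvd
    have h7 : N.index = Nat.card (P : Subgroup K) := hcomp.symm.index_eq_card
    rw [h7, Sylow.card_eq_multiplicity] at hdvd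
    exact (Nat.prime_dvd_prime_iff_eq hs hqp).1 (hs.dvd_of_dvd_pow hdvd)
  · rw [commutator_def, Subgroup.commutator_le]
    intro a _ b _
    obtain ⟨⟨⟨n₁, hn₁⟩, ⟨u₁, hu₁⟩⟩, h1, -⟩ := (Subgroup.isComplement_iff_existsUnique.1 hcomp) a
    obtain ⟨⟨⟨n₂, hn₂⟩, ⟨u₂, hu₂⟩⟩, h2, -⟩ := (Subgroup.isComplement_iff_existsUnique.1 hcomp) b
    simp only at h1 h2
    have hu : u₁ * u₂ = u₂ * u₁ := setLike_mul_comm hu₁ hu₂
    have ha : (QuotientGroup.mk a : K ⧸ N) = QuotientGroup.mk u₁ := by
      rw [← h1, QuotientGroup.mk_mul, (QuotientGroup.eq_one_iff n₁).2 hn₁, one_mul]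
    have hb : (QuotientGroup.mk b : K ⧸ N) = QuotientGroup.mk u₂ := by
      rw [← h2, QuotientGroup.mk_mul, (QuotientGroup.eq_one_iff n₂).2 hn₂, one_mul]
    rw [← QuotientGroup.eq_one_iff (N := N)]
    rw [commutatorElement_def]
    simp only [QuotientGroup.mk_mul, QuotientGroup.mk_inv, ha, hb]
    rw [← QuotientGroup.mk_mul, hu, QuotientGroup.mk_mul]
    group

/-- An element whose order is prime to the index of a normal subgroup lies in it. -/
theorem mem_of_orderOf_coprime_index {K : Type*} [Group K] [Finite K] (N₀ : Subgroup K)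
    [N₀.Normal] (y : K) (hy : (orderOf y).Coprime N₀.index) : y ∈ N₀ := by
  have h1 : orderOf (QuotientGroup.mk y : K ⧸ N₀) ∣ orderOf y := by
    apply orderOf_dvd_of_pow_eq_one
    rw [← QuotientGroup.mk_pow, pow_orderOf_eq_one]; rfl
  have h2 : orderOf (QuotientGroup.mk y : K ⧸ N₀) ∣ N₀.index := orderOf_dvd_natCard _
  have h3 : orderOf (QuotientGroup.mk y : K ⧸ N₀) = 1 :=
    Nat.eq_one_of_dvd_coprimes hy h1 h2
  rw [orderOf_eq_one_iff] at h3
  exact (QuotientGroup.eq_one_iff y).1 h3

end Cfsg.Agent.Lib.Helper65
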